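/-
Project DA7 (component of type A7, sectional 2-rank at most four): the interfaces, a copy of DIH/Defs.
-/
import Cfsg.Agent.H49.Basic
import Cfsg.Agent.H42.SylIn
import Cfsg.Agent.H85.SecRank
import Cfsg.Prelude.Def_Classification2

set_option autoImplicit false

namespace Cfsg.Agent.DIH.V7

open Subgroup H49
open H42 (SylIn)

variable {G : Type*} [Group G]

/-- `P` has sectional 2-rank at most four (ambient form). -/
def SR (P : Subgroup G) : Prop :=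
  ∀ K N : Subgroup G, K ≤ P → H85.ElemSec 2 K N → N.relIndex K ≤ 16

/-- `g` or `1` -/
def pw (b : Bool) (g : G) : G := cond b g 1

/-- `G = F⟨t⟩` with `F` simple of sectional 2-rank at most four. -/
structure GH (F : Subgroup G) (t : G) : Prop where
  nF : F.Normal
  simp : IsSimpleGroup F
  nab : ¬ IsMulCommutative F
  gen : ∀ g : G, g ∈ F ∨ g * t ∈ F
  cF : 𝒞(F) = ⊥
  t2 : t * t = 1
  t1 : t ≠ 1
  rk : SR F

/-- `a₁, a₂` generate a dihedral group of order eight with centre `z`. -/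
structure D8 (z a1 a2 : G) : Prop where
  z2 : z * z = 1
  z1 : z ≠ 1
  s1 : a1 * a1 = 1
  s2 : a2 * a2 = 1
  c1 : z * a1 = a1 * z
  c2 : z * a2 = a2 * z
  r : a2 * a1 = a1 * a2 * z

/-- `K/O` is a simple normal subgroup of `C(t)/O` with centralizer `⟨t⟩O/O` and Sylow 2-subgroup
`⟨a₁, a₂⟩`. -/
structure HL (O K : Subgroup G) (t z a1 a2 : G) : Prop extends D8 z a1 a2 where
  OK : O ≤ K
  KC : K ≤ 𝒞[t]
  nO : 𝒞[t] ≤ 𝒩(O)
  nK : 𝒞[t] ≤ 𝒩(K)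
  odd : Odd (Nat.card O)
  simpK : ∀ N : Subgroup G, O ≤ N → N ≤ K → K ≤ 𝒩(N) → N = O ∨ N = K
  cenK : ∀ c ∈ 𝒞[t], (∀ k ∈ K, c * k * c⁻¹ * k⁻¹ ∈ O) → c ∈ O ∨ c * t ∈ O
  sylD : SylIn 2 (closure {a1, a2}) K

/-- `K/O` is the alternating group of degree seven and is covered by `C_K(O)` -/
def A7 (O K : Subgroup G) : Prop :=
  ∃ π : K →* alternatingGroup (Fin 7), π.ker = O.subgroupOf K ∧ ∀ s, ∃ a : K, (a : G) ∈ 𝒞(O) ∧ π a = s

/-- `y` is the 3-cycle `(567)`; `z = (12)(34)`, `a = (13)(24)`, `A = (12)(56)` -/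
structure YA (O : Subgroup G) (t z a A y : G) : Prop extends D8 z a A where
  nO : 𝒞[t] ≤ 𝒩(O)
  odd : Odd (Nat.card O)
  ta : a * t = t * a
  tA : A * t = t * A
  y3 : y ^ 3 = 1
  y1 : y ≠ 1
  yt : y * t = t * y
  yz : y * z = z * y
  ya : y * a = a * y
  inv : A * y * A = y⁻¹
  yO : y ∈ 𝒞(O)
  aO : a ∈ 𝒞(O)
  AO : A ∈ 𝒞(O)
  tri : ∀ ω : G, Odd (orderOf ω) → ω * t = t * ω → ω * z = z * ω → ω ∈ O ∨ y⁻¹ * ω ∈ O ∨ y * ω ∈ O
  cen : ∀ c : G, c * t = t * c → c * a = a * c → c * A = A * c → c * y = y * c →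
    c ∈ O ∨ c * t ∈ O ∨ c * z ∈ O ∨ c * z * t ∈ O

/-- the base configuration: `T` is a Sylow 2-subgroup of `C(t)` -/
structure B0 (F O K T : Subgroup G) (t z a1 a2 : G) : Prop extends GH F t, HL O K t z a1 a2 where
  sylT : SylIn 2 T 𝒞[t]
  a1T : a1 ∈ T
  a2T : a2 ∈ T
  KF : K ≤ F
  tK : t ∉ K
  a7 : A7 O K

/-- `ρ` acts on `E = ⟨z, a⟩` with order three and centralizes `t, f`. -/
structure Rho (t z a f ρ : G) : Prop where
  odd : Odd (orderOf ρ)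
  ρt : ρ * t * ρ⁻¹ = t
  ρf : ρ * f * ρ⁻¹ = f
  ρz : ρ * z * ρ⁻¹ = a
  ρa : ρ * a * ρ⁻¹ = a * z

/-- `y` interchanges the two sides -/
def Swap (t z a1 a2 f y : G) : Prop :=
  (y * a1 * y⁻¹ = a2 ∨ y * a1 * y⁻¹ = a2 * z) ∧ (y * a2 * y⁻¹ = a1 ∨ y * a2 * y⁻¹ = a1 * z) ∧
    (y * f * y⁻¹ = f * z ∨ y * f * y⁻¹ = f * z * t)

/-- `T₀ = D C_T(D)` -/
def TT (t a1 a2 f : G) : Subgroup G := closure {a1, a2, t, f}

/-- `A = E⟨t, f⟩` -/
def AA (t z a f : G) : Subgroup G := closure {z, a, t, f}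

/-- the hyperplane `H = E⟨f⟩` of `A` -/
def HH (z a f : G) : Subgroup G := closure {z, a, f}

/-- Case A1: `C_T(D) = ⟨z, t⟩`. -/
structure CA1 (F O K T C0 : Subgroup G) (t z a1 a2 : G) : Prop extends B0 F O K T t z a1 a2 where
  cardT0 : Nat.card (TT t a1 a2 1) = 16
  Tel : ∀ y ∈ T, y ∈ TT t a1 a2 1 ∨ ((y * a1 * y⁻¹ = a2 ∨ y * a1 * y⁻¹ = a2 * z) ∧
    (y * a2 * y⁻¹ = a1 ∨ y * a2 * y⁻¹ = a1 * z))
  C0le : C0 ≤ 𝒞[t]
  C0mul : ∀ x ∈ 𝒞[t], ∀ y ∈ 𝒞[t], x ∉ C0 → y ∉ C0 → x * y ∈ C0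
  TC0 : T ⊓ C0 = TT t a1 a2 1
  nE1 : 𝒞[t] ⊓ 𝒩(closure {z, a1}) ≤ C0
  nE2 : 𝒞[t] ⊓ 𝒩(closure {z, a2}) ≤ C0
  r1 : ∃ ρ ∈ K, Rho t z a1 1 ρ
  r2 : ∃ ρ ∈ K, Rho t z a2 1 ρ

/-- Common part of case A2 (`f² = t`) and case B (`f² = 1`): `C_T(D) = ⟨z, t, f⟩` has order eight. -/
structure CW (F O K T C0 : Subgroup G) (t z a1 a2 f : G) : Prop extends B0 F O K T t z a1 a2 where
  fT : f ∈ T
  fa1 : f * a1 = a1 * f
  fa2 : f * a2 = a2 * f
  cardT0 : Nat.card (TT t a1 a2 f) = 32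
  Tel : ∀ y ∈ T, y ∈ TT t a1 a2 f ∨ Swap t z a1 a2 f y
  C0le : C0 ≤ 𝒞[t]
  C0mul : ∀ x ∈ 𝒞[t], ∀ y ∈ 𝒞[t], x ∉ C0 → y ∉ C0 → x * y ∈ C0
  TC0 : T ⊓ C0 = TT t a1 a2 f

/-- one side of case B -/
structure Sd (t z a f ρ : G) : Prop extends Rho t z a f ρ where
  card : Nat.card (AA t z a f) = 16
  fix : ∀ n ∈ 𝒞[t], n ∈ 𝒩(AA t z a f) → n * f * n⁻¹ = f ∧ n ∈ 𝒩(closure {z, a})
  syl : SylIn 2 (AA t z a f) 𝒞(AA t z a f)

/-- Case B. It is symmetric under `(a₁, a₂, f) ↦ (a₂, a₁, f z)` and under `f ↦ t f`. -/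
structure CB (F O K T C0 : Subgroup G) (t z a1 a2 f : G) : Prop extends CW F O K T C0 t z a1 a2 f where
  f2 : f * f = 1
  sd1 : ∃ ρ, Sd t z a1 f ρ
  sd2 : ∃ ρ, Sd t z a2 (f * z) ρ
  nA1 : 𝒞[t] ⊓ 𝒩(AA t z a1 f) ≤ C0
  nA2 : 𝒞[t] ⊓ 𝒩(AA t z a2 (f * z)) ≤ C0

/-- the orbit of `t` under `N(A)` is `t s` -/
def Orb (t : G) (A : Subgroup G) (s : Set G) : Prop :=
  ∀ y : G, (∃ n ∈ 𝒩(A), n * t * n⁻¹ = t * y) ↔ y ∈ s

/-- `n` acts on `A` in the given way and fixes `f` -/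
def Act (n t z a f t' z' a' : G) : Prop :=
  n * t * n⁻¹ = t' ∧ n * z * n⁻¹ = z' ∧ n * a * n⁻¹ = a' ∧ n * f * n⁻¹ = f

/-- common part of the types of `Aut_G(A)` -/
structure TyC (t z a f : G) : Prop where
  fixf : ∀ n ∈ 𝒩(AA t z a f), n * f * n⁻¹ = f
  nH : 𝒩(AA t z a f) ≤ 𝒩(HH z a f)
  noHH : ∀ g : G, g * t * g⁻¹ ∉ HH z a f

/-- `Aut_G(A) = S₃ × 2` -/
structure Ty2 (t z a f : G) : Prop extends TyC t z a f where
  orb : Orb t (AA t z a f) {1, f}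
  exu : ∃ u, Act u t z a f (t * f) z a
  cl : ∀ g : G, g * t * g⁻¹ ∈ AA t z a f → g * t * g⁻¹ = t ∨ g * t * g⁻¹ = t * f

/-- `Aut_G(A) = S₄`, linear -/
structure Ty4 (t z a f : G) : Prop extends TyC t z a f where
  orb : Orb t (AA t z a f) {1, z, a, a * z}
  exx : ∃ x, Act x t z a f (t * a) z a

/-- `Aut_G(A) = S₄`, symplectic -/
structure Ty5 (t z a f : G) : Prop extends TyC t z a f where
  orb : Orb t (AA t z a f) {1, z * f, a * f, a * z * f}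
  exd : ∃ d, Act d t z a f (t * (a * f)) (z * f) a

/-- `Aut_G(A) = 2 × S₄`, linear -/
structure Ty6 (t z a f : G) : Prop extends TyC t z a f where
  orb : Orb t (AA t z a f) (HH z a f)
  exx : ∃ x, Act x t z a f (t * a) z a
  exu : ∃ u, Act u t z a f (t * f) z a

/-- `Aut_G(A) = 2 × S₄`, symplectic -/
structure Ty7 (t z a f : G) : Prop extends TyC t z a f where
  orb : Orb t (AA t z a f) (HH z a f)
  exd : ∃ d, Act d t z a f (t * (a * f)) (z * f) a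
  exu : ∃ u, Act u t z a f (t * f) z a

/-- generators of `O₂` in the linear case; `x' = a' x a'`, `b = x x'` -/
structure Lin (t z a a' f ρ x : G) (ε l : Bool) : Prop extends Sd t z a f ρ, TyC t z a f where
  xt : x * t * x⁻¹ = t * a
  xz : x * z = z * x
  xa : x * a = a * x
  xf : x * f = f * x
  xx : x * x = pw ε f * pw l a
  xx' : x * (a' * x * a') = a' * x * a' * x * pw ε f
  ρx : ρ * x * ρ⁻¹ = a' * x * a' * pw ε f
  ρx' : ρ * (a' * x * a') * ρ⁻¹ = (x * (a' * x * a'))⁻¹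

/-- generators of `O₂` in the symplectic case -/
structure Sym (t z a a' f ρ b d : G) (δ : Bool) : Prop extends Sd t z a f ρ, TyC t z a f where
  bb : b * b = 1
  dd : d * d = 1
  bd : b * d = d * b
  bf : b * f = f * b
  df : d * f = f * d
  bz : b * z = z * b
  ba : b * a * b = a * f
  da : d * a = a * d
  dz : d * z * d = z * f
  bt : b * t * b = t * (z * f)
  dt : d * t * d = t * (a * f)
  ρb : ρ * b * ρ⁻¹ = d
  ρd : ρ * d * ρ⁻¹ = b * d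
  sb : a' * pw δ t * b * (a' * pw δ t) = b
  sd : a' * pw δ t * d * (a' * pw δ t) = b * d

/-- the element `c` of `C(ρ)` with `⟨t, c⟩` dihedral of order eight -/
structure Ce (t z a a' f ρ c : G) (η κ : Bool) : Prop where
  ct : c * t * c⁻¹ = t * f
  cz : c * z = z * c
  ca : c * a = a * c
  cf : c * f = f * c
  cρ : c * ρ = ρ * c
  cc : c * c = pw η f
  ac : a' * c * a' = c * pw κ f

/-- local structure, type 2 -/
structure L2 (P : Subgroup G) (t z a a' f ρ u : G) (κ : Bool) : Prop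
    extends Sd t z a f ρ, Ty2 t z a f, Ce t z a a' f ρ u false κ where
  gen : P = closure {z, a, a', t, f, u}
  sylP : SylIn 2 P 𝒩(AA t z a f)
  cardP : Nat.card P = 64

/-- local structure, type 4 -/
structure L4 (P : Subgroup G) (t z a a' f ρ x : G) (ε l : Bool) : Prop
    extends Lin t z a a' f ρ x ε l where
  ty : Ty4 t z a f
  gen : P = closure {z, a, a', t, f, x}
  sylP : SylIn 2 P 𝒩(AA t z a f)
  cardP : Nat.card P = 128

/-- local structure, type 5 -/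
structure L5 (P : Subgroup G) (t z a a' f ρ b d : G) (δ : Bool) : Prop
    extends Sym t z a a' f ρ b d δ where
  ty : Ty5 t z a f
  gen : P = closure {z, a, a', t, f, b, d}
  sylP : SylIn 2 P 𝒩(AA t z a f)
  cardP : Nat.card P = 128

/-- local structure, type 6 -/
structure L6 (P : Subgroup G) (t z a a' f ρ x c : G) (ε l η κ : Bool) : Prop
    extends Lin t z a a' f ρ x ε l, Ce t z a a' f ρ c η κ where
  cx : c * x = x * c
  ty : Ty6 t z a f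
  gen : P = closure {z, a, a', t, f, x, c}
  sylP : SylIn 2 P 𝒩(AA t z a f)
  cardP : Nat.card P = 256

/-- local structure, type 7 -/
structure L7 (P : Subgroup G) (t z a a' f ρ b d c : G) (δ η κ : Bool) : Prop
    extends Sym t z a a' f ρ b d δ, Ce t z a a' f ρ c η κ where
  cb : c * b = b * c
  cd : c * d = d * c
  ty : Ty7 t z a f
  gen : P = closure {z, a, a', t, f, b, d, c}
  sylP : SylIn 2 P 𝒩(AA t z a f)
  cardP : Nat.card P = 256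

/-- `P₁` and `P₂` share a Sylow 2-subgroup of `N(A₁) ∩ N(A₂)`. -/
def Share (P1 P2 : Subgroup G) (t z a1 a2 f : G) : Prop :=
  SylIn 2 (P1 ⊓ P2) (𝒩(AA t z a1 f) ⊓ 𝒩(AA t z a2 (f * z)))

end Cfsg.Agent.DIH.V7
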