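/-
Project DIH: interfaces of the branch (4,4).
-/
import Cfsg.Agent.DA7.Defs
import Cfsg.Agent.DIH.M44

set_option autoImplicit false

namespace Cfsg.Agent.DIH.V7

open Subgroup H49 PM

variable {G : Type*} [Group G]

/-- both sides elementary: `R = ⟨P₁, P₂⟩` has order 256, `b = x x' = w w'` -/
structure Q00 (F O K T C0 R : Subgroup G) (t z a A f x w ρ1 ρ2 : G) (m n : Bool) : Prop
    extends CB F O K T C0 t z a A f where
  l1 : Lin t z a A f ρ1 x false false
  l2 : Lin t z A a (f * z) ρ2 w false false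
  ty1 : Ty4 t z a f
  ty2 : Ty4 t z A (f * z)
  bb : w * (a * w * a) = x * (A * x * A)
  xw : x * w * x * w = x * (A * x * A) * pw m z * pw n f
  genR : R = closure {z, a, A, t, f, x, w}
  cardR : Nat.card R = 256

/-- the model of `R` -/
structure Em00 {m n : Bool} (φ : PM (DR m n) →* G) (R : Subgroup G) (t z a A f x w : G) : Prop where
  inj : Function.Injective φ
  range : φ.range = R
  ef : φ (el _ 1) = f
  ez : φ (el _ 2) = z
  eb : φ (el _ 4) = x * (A * x * A)
  ea : φ (el _ 8) = a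
  ex : φ (el _ 16) = x
  eA : φ (el _ 32) = A
  ew : φ (el _ 64) = w
  et : φ (el _ 128) = t

/-- `X = W₁ W₂`, codes `< 128` -/
def X00 (z a A f x w : G) : Subgroup G := closure {z, a, A, f, x, w}

/-- `W = ⟨f, z, b, a, x⟩`; `W₁` has the codes `< 32`, `W₂ = W00 z A a f w` those with `v < 128 ∧ v % 32 < 8` -/
def W00 (z a A f x : G) : Subgroup G := closure {z, a, f, x, A * x * A}

/-- `Z(X) = ⟨f, z, b⟩`, codes `< 8` -/
def Z00 (z A f x : G) : Subgroup G := closure {z, f, x * (A * x * A)}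

/-- the kernel of the character `f ↦ -1`, `w ↦ (-1)^γ` of `R` (case `n = false`): `R₀ = ⟨z, b, a, x, A, w f^γ, t⟩` -/
def Ch {m : Bool} (γ : Bool) (v : PM (DR m false)) : Prop := v.v % 2 = cond γ (v.v / 64 % 2) 0

instance decCh {m : Bool} (γ : Bool) (v : PM (DR m false)) : Decidable (Ch γ v) := by
  unfold Ch; infer_instance

/-- an element of `N(R)` outside `R`, with its automorphism of the model; `γ` is defined by
`y ⟨z, b, a, x⟩ y⁻¹ = ⟨z, b, A, w f^γ⟩` -/
structure Y00 {m : Bool} (φ : PM (DR m false) →* G) (α : PM (DR m false) ≃* PM (DR m false)) (y : G)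
    (γ : Bool) : Prop where
  act : ∀ v, φ (α v) = y * φ v * y⁻¹
  out : y ∉ φ.range
  sq : y * y ∈ φ.range
  yf : α (el _ 1) = el _ 3
  yz : α (el _ 2) = el _ 2
  yt : α (el _ 128) = el _ 128 ∨ α (el _ 128) = el _ 129
  X : ∀ v, (α v).v < 128 ↔ v.v < 128
  w12 : ∀ v, v.v < 32 ↔ (α v).v < 128 ∧ (α v).v % 32 < 8
  w21 : ∀ v, v.v < 128 ∧ v.v % 32 < 8 ↔ (α v).v < 32
  chi : ∀ v, v.v < 128 → (Ch γ (α v) ↔ Ch γ v)

/-- both sides homocyclic -/
structure Q11 (F O K T C0 P : Subgroup G) (t z a A f x w ρ1 ρ2 : G) (i j : Bool) : Prop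
    extends CB F O K T C0 t z a A f where
  l1 : L4 P t z a A f ρ1 x false true
  l2 : Lin t z A a (f * z) ρ2 w false true
  ty2 : Ty4 t z A (f * z)
  bb : w * (a * w * a) = x * (A * x * A) * pw i z * pw j f

/-- the model of `P` -/
structure Em11 (φ : PM D44 →* G) (P : Subgroup G) (t z a A f x : G) : Prop where
  inj : Function.Injective φ
  range : φ.range = P
  ef : φ (el _ 1) = f
  ez : φ (el _ 2) = z
  ea : φ (el _ 4) = a
  eb : φ (el _ 8) = x * (A * x * A)
  ex : φ (el _ 16) = x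
  et : φ (el _ 32) = t
  eA : φ (el _ 64) = A

end Cfsg.Agent.DIH.V7
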