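/-
Project DIH: interfaces of the branch (6,6), elementary case.
-/
import Cfsg.Agent.DA7.Defs
import Cfsg.Agent.DIH.M60a
import Cfsg.Agent.DIH.M60b
import Cfsg.Agent.DIH.M62

set_option autoImplicit false

namespace Cfsg.Agent.DIH.V7

open Subgroup H49 PM

variable {G : Type*} [Group G]

/-- the eight models of order 512 -/
noncomputable def D60 : Bool → Bool → Bool → PD
  | false, false, false => D6000
  | false, false, true => D6001
  | false, true, false => D6010
  | false, true, true => D6011
  | true, false, false => D6100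
  | true, false, true => D6101
  | true, true, false => D6110
  | true, true, true => D6111

instance okD60 (r m n : Bool) : (D60 r m n).OK := by
  cases r <;> cases m <;> cases n
  exacts [okD6000, okD6001, okD6010, okD6011, okD6100, okD6101, okD6110, okD6111]

/-- both sides elementary: `S = ⟨P₁, P₂⟩` has order 512, `b = x x'` -/
structure Q60 (F O K T C0 P S : Subgroup G) (t z a A f x w u ρ : G) (s m n : Bool) : Prop
    extends CB F O K T C0 t z a A f where
  l1 : L6 P t z a A f ρ x u false false false false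
  ty2 : Ty6 t z A (f * z)
  wF : w ∈ F
  ww : w * w = 1
  wt : w * t * w = t * A
  wz : w * z = z * w
  wA : w * A = A * w
  wf : w * f = f * w
  wu : w * u = u * w
  bb : w * (a * w * a) = x * (A * x * A) * pw s f
  xw : x * w * x * w = x * (A * x * A) * pw s u * pw m z * pw n f
  genS : S = closure {z, a, A, t, f, x, w, u}
  cardS : Nat.card S = 512

/-- the model of `S` -/
structure Em60 {r m n : Bool} (φ : PM (D60 r m n) →* G) (S : Subgroup G) (t z a A f x w u : G) : Prop where
  inj : Function.Injective φ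
  range : φ.range = S
  ez : φ (el _ 1) = z
  eb : φ (el _ 2) = x * (A * x * A)
  ef : φ (el _ 4) = f
  eu : φ (el _ 8) = u
  ea : φ (el _ 16) = a
  ex : φ (el _ 32) = x
  eA : φ (el _ 64) = A
  ew : φ (el _ 128) = w
  et : φ (el _ 256) = t

/-- `R = R₁ R₂`, codes `< 256` -/
def R60 (z a A f x w u : G) : Subgroup G := closure {z, a, A, f, x, w, u}

/-- `R₁ = E₆₄`, codes `< 64` -/
def W60 (z a A f x u : G) : Subgroup G := closure {z, a, f, x, A * x * A, u}

/-- `K₀ = Z(R)`, codes `< 16` -/
def K60 (z A f x u : G) : Subgroup G := closure {z, x * (A * x * A), f, u}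

/-- an element of `T` outside `T₀` that normalizes `S` -/
structure G60 (T S : Subgroup G) (t z a A f g : G) (e : Bool) : Prop where
  gT : g ∈ T
  g0 : g ∉ TT t a A f
  gS : g ∉ S
  nS : g ∈ 𝒩(S)
  ga : g * a * g⁻¹ = A
  gA : g * A * g⁻¹ = a
  gf : g * f * g⁻¹ = f * z
  gg : g * g = pw e t
  cardT : Nat.card T = 64

/-- the group `S⟨g⟩` of order 1024 -/
structure Q62 (F O K T C0 P S : Subgroup G) (t z a A f x w u ρ g : G) (m : Bool) : Prop
    extends Q60 F O K T C0 P S t z a A f x w u ρ false m false, G60 T S t z a A f g false where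
  gx : g * x * g = w
  gu : g * u * g = u * (x * (A * x * A))

/-- the model of `S⟨g⟩` -/
structure Em62 {m : Bool} (φ : PM (D62 m) →* G) (S : Subgroup G) (t z a A f x w u g : G) : Prop where
  inj : Function.Injective φ
  range : φ.range = S ⊔ zpowers g
  ez : φ (el _ 1) = z
  eb : φ (el _ 2) = x * (A * x * A)
  ef : φ (el _ 4) = f
  eu : φ (el _ 8) = u
  ea : φ (el _ 16) = a
  ex : φ (el _ 32) = x
  eA : φ (el _ 64) = A
  ew : φ (el _ 128) = w
  et : φ (el _ 256) = t
  eg : φ (el _ 512) = g

/-- an element normalizing `S⟨g⟩`, with its automorphism of the model -/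
structure H62 (φ : PM (D62 false) →* G) (α : PM (D62 false) ≃* PM (D62 false)) (h : G) : Prop where
  act : ∀ v, φ (α v) = h * φ v * h⁻¹
  out : h ∉ φ.range
  sq : ∃ p : PM (D62 false), (p.v = 0 ∨ p.v = 1 ∨ p.v = 84 ∨ p.v = 85) ∧ h * h = φ p
  two : IsPGroup 2 (φ.range ⊔ zpowers h : Subgroup G)
  ht : α (el _ 256) = el _ 768
  hg : α (el _ 512) = el _ 512
  hz : α (el _ 1) = el _ 1
  hb : α (el _ 2) = el _ 2
  hf : α (el _ 4) = el _ 6 ∨ α (el _ 4) = el _ 7
  hu : (α (el _ 8)).v / 4 = 2
  hx : (α (el _ 32)).v / 16 = 2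
  hR : ∀ v, v.v < 256 → (α v).v < 256

/-- `M = R⟨g, h⟩` -/
def M62 (z a A f x w u g h : G) : Subgroup G := closure {z, a, A, f, x, w, u, g, h}

end Cfsg.Agent.DIH.V7
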