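/-
Project DIH: interfaces of the branch (6,6), homocyclic case.
-/
import Cfsg.Agent.DA7.Defs
import Cfsg.Agent.DIH.M61

set_option autoImplicit false

namespace Cfsg.Agent.DIH.V7

open Subgroup H49 PM

variable {G : Type*} [Group G]

/-- `R₁ = ℤ₄³`, codes `< 64` -/
def R61 (A x c : G) : Subgroup G := closure {x, A * x * A, c}

/-- `Q₁ = R₁⟨t⟩`, codes `< 128` -/
def Q6 (t A x c : G) : Subgroup G := closure {x, A * x * A, c, t}

/-- `Y = ⟨x, x', f⟩`, codes `< 32` -/
def Y61 (A f x : G) : Subgroup G := closure {x, A * x * A, f}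

/-- side one and the fusion coming from side two; `b = x x'` -/
structure Q61 (F O K T C0 P : Subgroup G) (t z a A f ρ x c : G) : Prop
    extends CB F O K T C0 t z a A f where
  l1 : L6 P t z a A f ρ x c false true true false
  fz : IsConj z A
  ff : IsConj f (f * A)
  ft : IsConj t (t * A)
  fc : IsConj (t * c) (t * c * A)
  fb : IsConj (t * c) (t * c * (x * (A * x * A)))

/-- an element of `N(Q₁)` coming from `ρ₂` -/
structure Sg61 (t z a A f x c σ : G) (p q : Bool) : Prop where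
  nQ : σ ∈ 𝒩(Q6 t A x c)
  pt : (t * (x * (A * x * A)))⁻¹ * (σ * (t * (x * (A * x * A))) * σ⁻¹) ∈ HH z a f
  σf : σ * (f * z) * σ⁻¹ = f * z
  σz : σ * z * σ⁻¹ = a * pw p z * pw q f
  σa : σ * (a * pw p z * pw q f) * σ⁻¹ = a * pw p z * pw q f * z

/-- an element of `N(Q₁)` mapping `t` to `t b` -/
structure Dl61 (t z a A f x c δ : G) : Prop where
  nQ : δ ∈ 𝒩(Q6 t A x c)
  dt : δ * t * δ⁻¹ = t * (x * (A * x * A))
  dz : δ * z * δ⁻¹ = z
  da : δ * a * δ⁻¹ = a
  df : δ * f * δ⁻¹ = f * z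

/-- the normal form of its action -/
structure Dn61 (t A x c δ : G) : Prop where
  dt : δ * t * δ⁻¹ = t * (x * (A * x * A))
  dx : δ * x * δ⁻¹ = x * (A * x * A) ^ 2
  dy : δ * (A * x * A) * δ⁻¹ = A * x * A * x ^ 2
  dc : δ * c * δ⁻¹ = c * (x * (A * x * A))

/-- the group `S` of order 1024 -/
structure Q63 (F O K T C0 P S : Subgroup G) (t z a A f ρ x c d e κ : G) (i : Bool) : Prop
    extends Q61 F O K T C0 P t z a A f ρ x c, Dn61 t A x c d where
  dd : d * d = 1
  dA : d * A = A * d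
  ee : e * e = 1
  κQ : ∀ g ∈ Q6 t A x c, κ * g * κ⁻¹ = ρ * g * ρ⁻¹
  κd : κ * d * κ⁻¹ = e ∨ κ * d * κ⁻¹ = e * a
  ed : e * d * e = d * pw i (a * z)
  Ae : A * e * A = d * e * pw i f
  genS : S = closure {x, c, t, A, d, e}
  cardS : Nat.card S = 1024

/-- the model of `P₁` -/
structure Em61 (φ : PM D61 →* G) (P : Subgroup G) (t z a A f x c : G) : Prop where
  inj : Function.Injective φ
  range : φ.range = P
  ez : φ (el _ 1) = z
  ea : φ (el _ 2) = a
  ef : φ (el _ 4) = f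
  eb : φ (el _ 8) = x * (A * x * A)
  ex : φ (el _ 16) = x
  ec : φ (el _ 32) = c
  et : φ (el _ 64) = t
  eA : φ (el _ 128) = A

/-- the model of `S` -/
structure Em63 {i : Bool} (φ : PM (D63 i) →* G) (S : Subgroup G) (t z a A f x c d e : G) : Prop where
  inj : Function.Injective φ
  range : φ.range = S
  ez : φ (el _ 1) = z
  ea : φ (el _ 2) = a
  ef : φ (el _ 4) = f
  eb : φ (el _ 8) = x * (A * x * A)
  ex : φ (el _ 16) = x
  ec : φ (el _ 32) = c
  et : φ (el _ 64) = t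
  eA : φ (el _ 128) = A
  ed : φ (el _ 256) = d
  ee : φ (el _ 512) = e

end Cfsg.Agent.DIH.V7
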