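/-
Project DA7: further interfaces.
-/
import Cfsg.Agent.DA7.Defs
import Cfsg.Agent.DA7.M00

set_option autoImplicit false

namespace Cfsg.Agent.DIH.V7

open Subgroup H49 PM

/-- the 3-cycle `τ = (567)` for `z = (12)(34)`, `a = (13)(24)`, `A = (12)(56)` -/
structure S7Y (z a A τ : Equiv.Perm (Fin 7)) : Prop where
  ev : τ ∈ alternatingGroup (Fin 7)
  t3 : τ ^ 3 = 1
  t1 : τ ≠ 1
  tz : τ * z = z * τ
  ta : τ * a = a * τ
  inv : A * τ * A = τ⁻¹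
  tri : ∀ σ : Equiv.Perm (Fin 7), Odd (orderOf σ) → σ * z = z * σ → σ = 1 ∨ σ = τ ∨ σ = τ⁻¹
  cen : ∀ σ : Equiv.Perm (Fin 7), σ * a = a * σ → σ * A = A * σ → σ = 1 ∨ σ = z ∨
    (σ * τ * σ⁻¹ = τ⁻¹ ∧ ∃ τ' ∈ alternatingGroup (Fin 7), τ' ^ 3 = 1 ∧ τ' * τ = τ * τ' ∧ τ' ≠ 1 ∧ τ' ≠ τ ∧
      τ' ≠ τ⁻¹ ∧ (σ * τ' = τ' * σ ∨ σ * z * τ' = τ' * (σ * z)))

variable {G : Type*} [Group G]

/-- the 3-element `y` of a subgroup `A` with `A/Z(A) = A₇`; `a, b` generate a Sylow 2-subgroup of `A` -/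
structure YT (A : Subgroup G) (z a b y : G) : Prop where
  yA : y ∈ A
  y3 : y ^ 3 = 1
  y1 : y ∉ 𝒞(A)
  yz : y * z = z * y
  ya : y * a = a * y
  inv : b * y * b = y⁻¹
  tri : ∀ ω ∈ 𝒩(A), Odd (orderOf ω) → ω * z = z * ω → ω ∈ 𝒞(A) ∨ y⁻¹ * ω ∈ 𝒞(A) ∨ y * ω ∈ 𝒞(A)
  out : ∀ w ∈ 𝒩(A), w * a = a * w → w * b = b * w → w ∈ 𝒞(A) ∨ w * z ∈ 𝒞(A) ∨
    (w * y * w⁻¹ = y⁻¹ ∧ ∀ ζ ∈ A ⊓ 𝒞(A), w * ζ * w⁻¹ = ζ⁻¹)

/-- one side of case A1; `x' = A x A`, `b = x x'` -/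
structure LA (t z a A x : G) (l : Bool) : Prop where
  xt : x * t * x⁻¹ = t * a
  xz : x * z = z * x
  xa : x * a = a * x
  xx : x * x = pw l a
  xx' : x * (A * x * A) = A * x * A * x
  sg : ∃ σ e : G, σ * t * σ⁻¹ = t ∧ σ * z * σ⁻¹ = a ∧ σ * a * σ⁻¹ = a * z ∧ e ∈ closure {z, a, t} ∧
    x = σ * (x * (A * x * A) * e) * σ⁻¹

/-- case A1, both sides elementary -/
structure QA (F O K T C0 R : Subgroup G) (t z a A x w : G) (m : Bool) : Prop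
    extends CA1 F O K T C0 t z a A where
  l1 : LA t z a A x false
  wF : w ∈ F
  ww : w * w = 1
  wt : w * t * w = t * A
  wz : w * z = z * w
  wA : w * A = A * w
  bb : w * (a * w * a) = x * (A * x * A)
  bw : a * w * a * w = x * (A * x * A)
  xw : x * w * x * w = x * (A * x * A) * pw m z
  genR : R = closure {z, a, A, t, x, w}
  cardR : Nat.card R = 128

/-- the model of `R` -/
structure EmA {m : Bool} (φ : PM (DA m) →* G) (R : Subgroup G) (t z a A x w : G) : Prop where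
  inj : Function.Injective φ
  range : φ.range = R
  ez : φ (el _ 1) = z
  eb : φ (el _ 2) = x * (A * x * A)
  ea : φ (el _ 4) = a
  ex : φ (el _ 8) = x
  eA : φ (el _ 16) = A
  ew : φ (el _ 32) = w
  et : φ (el _ 64) = t

end Cfsg.Agent.DIH.V7
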