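import Cfsg.Agent.H49.Basic
import Mathlib.GroupTheory.SpecificGroups.Alternating
import Mathlib.GroupTheory.Perm.Cycle.Type

set_option autoImplicit false

namespace Cfsg.Agent.DIH.V7.E7

open Subgroup H49 Equiv

/-- a 7-cycle -/
def c7 : Perm (Fin 7) := swap 0 6 * swap 0 5 * (swap 0 4 * swap 0 3) * (swap 0 2 * swap 0 1)

/-- multiplication by two -/
def n7 : Perm (Fin 7) := swap 1 4 * swap 1 2 * (swap 3 5 * swap 3 6)

theorem c7_mem : c7 ∈ alternatingGroup (Fin 7) := by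
  rw [Perm.mem_alternatingGroup, c7]
  simp only [Perm.sign_mul]
  repeat rw [Perm.sign_swap (by decide)]
  decide

theorem n7_mem : n7 ∈ alternatingGroup (Fin 7) := by
  rw [Perm.mem_alternatingGroup, n7]
  simp only [Perm.sign_mul]
  repeat rw [Perm.sign_swap (by decide)]
  decide

theorem n7_c7 : n7 * c7 * n7⁻¹ = c7 ^ 2 := by decide

theorem c7_pow : c7 ^ 7 = 1 := by decide +kernel

theorem c7_ne : c7 ≠ 1 := by decide

theorem card_a7 : Nat.card (alternatingGroup (Fin 7)) = 2520 := by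
  have := two_mul_nat_card_alternatingGroup (α := Fin 7)
  rw [Nat.card_perm, Nat.card_fin] at this
  simp only [Nat.factorial] at this
  omega

variable {G : Type*} [Group G]

theorem frob {O K : Subgroup G} (π : K →* alternatingGroup (Fin 7))
    (hk : ∀ k : K, π k = 1 ↔ (k : G) ∈ O) (hs : ∀ s, ∃ k : K, (k : G) ∈ 𝒞(O) ∧ π k = s) :
    ∃ g ∈ K, ∃ k ∈ K, orderOf g = 7 ∧ k * g * k⁻¹ = g ^ 2 := by
  obtain ⟨g, hg, eg⟩ := hs ⟨c7, c7_mem⟩
  obtain ⟨k, hk', ek⟩ := hs ⟨n7, n7_mem⟩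
  obtain ⟨ζ, hζ⟩ : ∃ ζ : K, ζ = (g ^ 2)⁻¹ * (k * g * k⁻¹) := ⟨_, rfl⟩
  have z1 : π ζ = 1 := by
    rw [hζ]
    simp only [map_mul, map_inv, map_pow, eg, ek]
    rw [inv_mul_eq_one]
    exact Subtype.ext n7_c7.symm
  have cg : Commute ζ g := Subtype.ext (hg _ ((hk ζ).1 z1))
  have ck : ζ * k = k * ζ := Subtype.ext (hk' _ ((hk ζ).1 z1))
  have e1 : k * (g * ζ) * k⁻¹ = (g * ζ) ^ 2 := by
    calc k * (g * ζ) * k⁻¹ = k * g * k⁻¹ * (k * ζ * k⁻¹) := by group
      _ = g ^ 2 * ζ * ζ := by rw [← ck, mul_inv_cancel_right, hζ, mul_inv_cancel_left]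
      _ = _ := by rw [cg.symm.mul_pow, sq ζ, mul_assoc]
  have e0 : π (g * ζ) = ⟨c7, c7_mem⟩ := by rw [map_mul, z1, mul_one, eg]
  have e7 : π ((g * ζ) ^ 7) = 1 := by rw [map_pow, e0]; exact Subtype.ext c7_pow
  have c2 : (g * ζ) ^ 7 * k = k * (g * ζ) ^ 7 := Subtype.ext (hk' _ ((hk _).1 e7))
  have e2 : (g * ζ) ^ 7 = 1 := by
    have : k * (g * ζ) ^ 7 * k⁻¹ = (g * ζ) ^ 7 * (g * ζ) ^ 7 := by
      rw [← conj_pow, e1, ← pow_mul, ← pow_add]
    rw [← c2, mul_inv_cancel_right] at this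
    exact left_eq_mul.1 this
  have : Fact (Nat.Prime 7) := ⟨by norm_num⟩
  refine ⟨(g * ζ : K), (g * ζ).2, k, k.2, ?_, congrArg Subtype.val e1⟩
  rw [orderOf_coe]
  exact orderOf_eq_prime e2 fun e => c7_ne (by rw [e, map_one] at e0; exact (congrArg Subtype.val e0).symm)

theorem no14 {α : Type*} [Finite α] (h : Nat.card α ≤ 8) (σ : Perm α) : orderOf σ ≠ 14 := by
  classical
  have := Fintype.ofFinite α
  intro e
  have hl : orderOf σ ∣ σ.cycleType.prod := by
    rw [← Perm.lcm_cycleType]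
    exact Multiset.lcm_dvd.2 fun b hb => Multiset.dvd_prod hb
  rw [e] at hl
  obtain ⟨a, ha, ha'⟩ := (Nat.prime_iff.1 (by norm_num : Nat.Prime 7)).exists_mem_multiset_dvd
    ((by norm_num : 7 ∣ 14).trans hl)
  obtain ⟨b, hb, hb'⟩ := (Nat.prime_iff.1 Nat.prime_two).exists_mem_multiset_dvd
    ((by norm_num : 2 ∣ 14).trans hl)
  have hs : σ.cycleType.sum ≤ 8 := by
    rw [Perm.sum_cycleType]
    exact (Finset.card_le_univ _).trans (by rwa [← Nat.card_eq_fintype_card])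
  have a2 := Perm.two_le_of_mem_cycleType ha
  have b2 := Perm.two_le_of_mem_cycleType hb
  obtain ⟨s, es⟩ := Multiset.exists_cons_of_mem ha
  rw [es, Multiset.sum_cons] at hs
  rw [es, Multiset.mem_cons] at hb
  rcases hb with rfl | hb
  · omega
  · have := Multiset.le_sum_of_mem hb
    omega

theorem big [Finite G] {F C : Subgroup G} [F.Normal] [IsSimpleGroup F] (cF : 𝒞(F) = ⊥) (hF : ¬ F ≤ C) {x : G}
    (hx : orderOf x = 14) : 8 < C.index := by
  by_contra hlt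
  have hN : C.normalCore = ⊥ := by
    rcases IsSimpleGroup.eq_bot_or_eq_top_of_normal (C.normalCore.subgroupOf F) inferInstance with e | e
    · rw [eq_bot_iff, ← cF]
      intro n hn y hy
      exact (commute_of_normal_of_disjoint _ _ inferInstance inferInstance (subgroupOf_eq_bot.1 e) n y hn hy).symm
    · exact absurd ((subgroupOf_eq_top.1 e).trans C.normalCore_le) hF
  have hi : Function.Injective (MulAction.toPermHom G (G ⧸ C)) := by
    rw [← MonoidHom.ker_eq_bot_iff, ← normalCore_eq_ker, hN]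
  exact no14 (α := G ⧸ C) (not_lt.1 hlt) _ ((orderOf_injective _ hi x).trans hx)

end Cfsg.Agent.DIH.V7.E7
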