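/-
Project DIH: coordinates on `A` and the calculus for the extension `Q` of `A` with the action of `S₃`.
-/
import Cfsg.Agent.DA7.Defs

set_option autoImplicit false

namespace Cfsg.Agent.DIH.V7.LX

open Subgroup H49

/-- coordinates `(z, a, t, f)` -/
abbrev V : Type := ZMod 2 × ZMod 2 × ZMod 2 × ZMod 2

instance decV : DecidableEq V := inferInstance

instance finV : Fintype V := inferInstance

/-- the action of `ρ` -/
def mR (v : V) : V := (v.2.1, v.1 + v.2.1, v.2.2)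

/-- the action of `a'` -/
def mS (v : V) : V := (v.1 + v.2.1, v.2)

/-- `t ↦ t a` -/
def mX (v : V) : V := (v.1, v.2.1 + v.2.2.1, v.2.2)

/-- `t ↦ t a f`, `z ↦ z f` -/
def mD (v : V) : V := (v.1, v.2.1 + v.2.2.1, v.2.2.1, v.2.2.2 + v.1 + v.2.2.1)

/-- `t ↦ t f` -/
def mU (v : V) : V := (v.1, v.2.1, v.2.2.1, v.2.2.2 + v.2.2.1)

/-- the vector of `t` -/
def vt : V := (0, 0, 1, 0)

/-- conjugation of an action by `ρ` -/
def cR (m : V → V) (v : V) : V := mR (m (mR (mR v)))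

/-- the change of the norm -/
def nn (m : V → V) (v : V) : V := cR (cR m) (cR m v + mR v) + mR (mR v)

/-- the norm in the reversed order -/
def rv (m : V → V) (h : V) : V := m (m (cR m (mR (mR h))) + (m (mR h) + h))

variable {G : Type*} [Group G] {Q : Subgroup G} {φ : V → G} {R S : MulAut G} {x y : G} {m m' : V → V}

/-- `y⁻¹` acts as `m` -/
def Ac (φ : V → G) (y : G) (m : V → V) : Prop := ∀ v, φ v * y = y * φ (m v)

/-- the norm -/
def N (R : MulAut G) (y : G) : G := y * R y * R (R y)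

/-- the set-up -/
structure Cx (Q : Subgroup G) (φ : V → G) (R S : MulAut G) : Prop where
  add : ∀ v w, φ (v + w) = φ v * φ w
  inj : Function.Injective φ
  mem : ∀ v, φ v ∈ Q
  cen : ∀ q ∈ Q, q * φ vt = φ vt * q → ∃ v, q = φ v
  RQ : ∀ q ∈ Q, R q ∈ Q
  SQ : ∀ q ∈ Q, S q ∈ Q
  RA : ∀ v, R (φ v) = φ (mR v)
  SA : ∀ v, S (φ v) = φ (mS v)
  SS : ∀ q, S (S q) = q
  R3 : ∀ q ∈ Q, R (R (R q)) = q
  SR : ∀ q ∈ Q, S (R (S (R q))) = q

theorem Ac.mul (h : Ac φ x m) (h' : Ac φ y m') : Ac φ (x * y) (m' ∘ m) := fun v => by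
  rw [← mul_assoc, h, mul_assoc, h', ← mul_assoc]; rfl

theorem Ac.push (h : Ac φ y m) (g : G) (v : V) : g * φ v * y = g * y * φ (m v) := by
  rw [mul_assoc, h, mul_assoc]

namespace Cx

variable (c : Cx Q φ R S)
include c

theorem zero : φ 0 = 1 := left_eq_mul.1 ((congrArg φ (add_zero 0).symm).trans (c.add 0 0))

theorem join (g : G) (v w : V) : g * φ v * φ w = g * φ (v + w) := by rw [c.add, mul_assoc]

theorem sq (v : V) : φ v * φ v = 1 := by
  rw [← c.add, (by decide : ∀ v : V, v + v = 0), c.zero]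

theorem inv (v : V) : (φ v)⁻¹ = φ v := inv_eq_of_mul_eq_one_right (c.sq v)

theorem eq0 {v : V} (h : φ v = 1) : v = 0 := c.inj (h.trans c.zero.symm)

theorem acφ (h : Ac φ y m) (w : V) : Ac φ (y * φ w) m := fun v => by
  rw [← mul_assoc, h, c.join, c.join, add_comm]

theorem acR (h : Ac φ y m) : Ac φ (R y) (cR m) := fun v => by
  have := congrArg R (h (mR (mR v)))
  rwa [map_mul, map_mul, c.RA, c.RA, (by decide : ∀ v, mR (mR (mR v)) = v)] at this

theorem acS (h : Ac φ y m) : Ac φ (S y) (mS ∘ m ∘ mS) := fun v => by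
  have := congrArg S (h (mS v))
  rwa [map_mul, map_mul, c.SA, c.SA, (by decide : ∀ v, mS (mS v) = v)] at this

theorem same (hx : x ∈ Q) (hy : y ∈ Q) (h : Ac φ x m) (h' : Ac φ y m') (e : m vt = m' vt) :
    ∃ v, y = x * φ v := by
  obtain ⟨v, hv⟩ := c.cen (y * x⁻¹) (mul_mem hy (inv_mem hx)) (by
    rw [← mul_assoc, h', ← e, mul_assoc, mul_assoc, mul_right_inj, eq_mul_inv_iff_mul_eq, mul_assoc, h,
      inv_mul_cancel_left])
  exact ⟨m v, by rw [← h, ← hv, inv_mul_cancel_right]⟩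

theorem one (hy : y ∈ Q) (h : Ac φ y m) (e : m vt = vt) : ∃ v, y = φ v :=
  c.cen y hy (by rw [h, e])

theorem RS (hy : y ∈ Q) : R (S y) = S (R (R y)) := by
  conv_lhs => rw [← c.R3 y hy, ← c.SS (R (S (R (R (R y))))), c.SR _ (c.RQ _ (c.RQ _ hy))]

theorem SR' (hy : y ∈ Q) : S (R y) = R (R (S y)) := by
  rw [c.RS hy, c.RS (c.RQ _ (c.RQ _ hy)), c.R3 _ (c.RQ _ hy)]

theorem N_mul (h : Ac φ y m) (v : V) : N R (y * φ v) = N R y * φ (nn m v) := by
  simp only [N, map_mul, c.RA, ← mul_assoc, (c.acR h).push, c.join, (c.acR (c.acR h)).push, nn]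

theorem sq_mul (h : Ac φ y m) (v : V) : y * φ v * (y * φ v) = y * y * φ (m v + v) := by
  rw [← mul_assoc, h.push, c.join]

theorem exN (hy : y ∈ Q) (h : Ac φ y m) (h1 : cR (cR m) (cR m (m vt)) = vt)
    (h2 : ∀ n, mR n = m n → ∃ v, n + nn m v = 0) : ∃ v, N R (y * φ v) = 1 := by
  obtain ⟨n, hn⟩ := c.one (y := N R y) (mul_mem (mul_mem hy (c.RQ _ hy)) (c.RQ _ (c.RQ _ hy)))
    ((h.mul (c.acR h)).mul (c.acR (c.acR h))) h1
  obtain ⟨v, hv⟩ := h2 n (c.inj (mul_left_cancel (a := y) (by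
    rw [← h, ← c.RA, ← hn]
    simp only [N, map_mul, c.R3 y hy, mul_assoc])))
  exact ⟨v, by rw [c.N_mul h, hn, ← c.add, hv, c.zero]⟩

theorem exsq (hy : y ∈ Q) (h : Ac φ y m) (h1 : ∀ v, m (m v) = v) : ∃ w, y * y = φ w ∧ m w = w := by
  obtain ⟨w, hw⟩ := c.one (mul_mem hy hy) (h.mul h) (h1 _)
  exact ⟨w, hw, c.inj (mul_left_cancel (a := y) (by rw [← h, ← hw, mul_assoc]))⟩

theorem rev (h : Ac φ y m) (h1 : ∀ v, m (m v) = v) (hN : N R y = 1) {w : V} (hw : y * y = φ w) :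
    y * R (R y) * R y = φ (rv m w) := by
  have k : ∀ {y : G} {w : V}, y * y = φ w → y⁻¹ = y * φ w := fun {y w} e => by
    rw [inv_eq_iff_mul_eq_one, ← mul_assoc, e, c.sq]
  have e := congrArg (·⁻¹) hN
  simp only [N, mul_inv_rev, inv_one, k hw, k (show R y * R y = _ by rw [← map_mul, hw, c.RA]),
    k (show R (R y) * R (R y) = _ by rw [← map_mul, ← map_mul, hw, c.RA, c.RA]), ← mul_assoc,
    (c.acR h).push, h.push, c.join] at e
  rw [mul_eq_one_iff_eq_inv, c.inv] at e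
  rw [← mul_left_inj y, h, rv, h1, ← e]
  simp only [mul_assoc]

theorem NS (hy : y ∈ Q) : N R (S y) = S (y * R (R y) * R y) := by
  simp only [N, map_mul, c.SR' hy, c.RS hy]

/-- the constraints on `S y = R y φ α` -/
theorem exS (hy : y ∈ Q) (h : Ac φ y m) (h1 : ∀ v, m (m v) = v) (h2 : cR m vt = mS (m (mS vt)))
    (hN : N R y = 1) {w : V} (hw : y * y = φ w) :
    ∃ α, S y = R y * φ α ∧ mR (mR α) + mS α = 0 ∧ nn (cR m) α = mS (rv m w) ∧
      mR w + (cR m α + α) = mS w := by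
  obtain ⟨α, e⟩ := c.same (c.RQ _ hy) (c.SQ _ hy) (c.acR h) (c.acS h) h2
  refine ⟨α, e, c.eq0 (mul_left_cancel (a := y) ?_), c.inj ?_, c.inj ?_⟩
  · have := c.SS y
    rwa [e, map_mul, c.SR' hy, e, map_mul, map_mul, c.R3 y hy, c.RA, c.RA, c.SA, c.join, ← mul_one y,
      mul_assoc, one_mul] at this
  · rw [← c.SA, ← c.rev h h1 hN hw, ← c.NS hy, e, c.N_mul (c.acR h), eq_comm, mul_eq_right]
    simpa only [N, map_mul, map_one] using congrArg R hN
  · rw [← c.SA, ← hw, map_mul, e, c.sq_mul (c.acR h), ← map_mul, hw, c.RA, c.add]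

/-- the element of `C(ρ)` -/
theorem exU (hy : y ∈ Q) (h : Ac φ y mU) : ∃ u ∈ Q, Ac φ u mU ∧ R u = u ∧ ∃ i k : ZMod 2,
    u * u = φ (0, 0, 0, i) ∧ S u = u * φ (0, 0, 0, k) := by
  obtain ⟨γ, e⟩ := c.same hy (c.RQ _ hy) h (c.acR h) (by decide)
  have e3 := c.R3 y hy
  simp only [e, map_mul, c.RA, c.join, mul_eq_left] at e3
  have hu := mul_mem hy (c.mem (mR γ))
  have h' := c.acφ h (mR γ)
  have r : R (y * φ (mR γ)) = y * φ (mR γ) := by
    rw [map_mul, e, c.RA, c.join]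
    exact congrArg _ (congrArg φ ((by decide : ∀ γ, γ + mR (γ + mR γ) = 0 →
      γ + mR (mR γ) = mR γ) γ (c.eq0 e3)))
  refine ⟨_, hu, h', r, ?_⟩
  generalize y * φ (mR γ) = u at hu h' r
  obtain ⟨w, w1, w2⟩ := c.exsq hu h' (by decide)
  obtain ⟨δ, d⟩ := c.same hu (c.SQ _ hu) h' (c.acS h') (by decide)
  have a1 : mR w = w := c.inj (by rw [← c.RA, ← w1, map_mul, r])
  have a2 : mR δ = δ := c.inj (mul_left_cancel (a := u) (by
    rw [← d, ← c.RA, ← r, ← map_mul, r, ← d, c.RS hu, r, r]))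
  have a3 : w + (mU δ + δ) = mS w := c.inj (by rw [← c.SA, ← w1, map_mul, d, c.sq_mul h', w1, c.add])
  obtain ⟨b1, b2⟩ := (by decide : ∀ w δ, mU w = w → mR w = w → mR δ = δ → w + (mU δ + δ) = mS w →
    w = (0, 0, 0, w.2.2.2) ∧ δ = (0, 0, 0, δ.2.2.2)) w δ w2 a1 a2 a3
  exact ⟨_, _, b1 ▸ w1, b2 ▸ d⟩

theorem exK {u : G} (hu : u ∈ Q) (h' : Ac φ u mU) (r : R u = u) (hy : y ∈ Q) (h : Ac φ y m)
    (e : m (mU vt) = mU (m vt)) (hN : N R y = 1) : ∃ v, u * y = y * φ v * u ∧ nn m v = 0 := by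
  obtain ⟨v, hv⟩ := c.same (mul_mem hy hu) (mul_mem hu hy) (h.mul h') (h'.mul h) e.symm
  have k : u * y = y * φ (mU v) * u := by rw [h'.push, hv, (by decide : ∀ v, mU (mU v) = v)]
  refine ⟨_, k, c.eq0 ?_⟩
  have := c.N_mul h (mU v)
  rw [hN, one_mul, ← mul_inv_eq_iff_eq_mul.2 k] at this
  rw [← this, show N R (u * y * u⁻¹) = u * N R y * u⁻¹ by
    simp only [N, map_mul, map_inv, r, mul_assoc, inv_mul_cancel_left], hN, mul_one, mul_inv_cancel]

theorem ut {u : G} {i k : ZMod 2} (h : Ac φ u mU) (r : R u = u) (h1 : u * u = φ (0, 0, 0, i))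
    (h2 : S u = u * φ (0, 0, 0, k)) : R (u * φ vt) = u * φ vt ∧
      u * φ vt * (u * φ vt) = φ (0, 0, 0, i + 1) ∧ S (u * φ vt) = u * φ vt * φ (0, 0, 0, k) := by
  refine ⟨by rw [map_mul, r, c.RA]; rfl, ?_, ?_⟩
  · rw [c.sq_mul h, h1, ← c.add]
    exact congrArg φ (by generalize i = j; revert j; decide)
  · rw [map_mul, h2, c.SA, c.join, c.join]
    exact congrArg _ (congrArg φ (by generalize k = j; revert j; decide))

/-- the linear case -/
theorem lin (hy : y ∈ Q) (h : Ac φ y mX) : ∃ x ∈ Q, Ac φ x mX ∧ N R x = 1 ∧ ∃ e l : ZMod 2,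
    x * x = φ (0, l, 0, e) ∧ x * S x = S x * x * φ (0, 0, 0, e) ∧ R x = S x * φ (0, 0, 0, e) ∧
      R (S x) = (x * S x)⁻¹ := by
  obtain ⟨v, hv⟩ := c.exN hy h (by decide) (by decide)
  have hy' := mul_mem hy (c.mem v)
  have h' := c.acφ h v
  generalize y * φ v = y at hv hy' h'
  obtain ⟨w, w1, w2⟩ := c.exsq hy' h' (by decide)
  obtain ⟨α, a1, a2, a3, -⟩ := c.exS hy' h' (by decide) (by decide) hv w1
  obtain ⟨β, e, b1, b2⟩ := (by decide : ∀ w α, mX w = w → mR (mR α) + mS α = 0 →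
    nn (cR mX) α = mS (rv mX w) → ∃ β, ∃ e : ZMod 2, nn mX β = 0 ∧ mR β = α + mS β + (0, 0, 0, e))
    w α w2 a2 a3
  have hx := mul_mem hy' (c.mem β)
  have ac := c.acφ h' β
  have n : N R (y * φ β) = 1 := by rw [c.N_mul h', hv, b1, c.zero, mul_one]
  have r : R (y * φ β) = S (y * φ β) * φ (0, 0, 0, e) := by
    rw [map_mul, map_mul, a1, c.RA, c.SA, c.join, c.join, b2, add_assoc]
  refine ⟨_, hx, ac, n, e, ?_⟩
  generalize y * φ β = x at hx ac n r
  have f1 : ∀ {g : G} {m : V → V}, Ac φ g m → m (0, 0, 0, e) = (0, 0, 0, e) →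
      φ (0, 0, 0, e) * g = g * φ (0, 0, 0, e) := fun h e => by rw [h, e]
  have fx := f1 ac (by generalize e = j; revert j; decide)
  have fx' := f1 (c.acS ac) (by generalize e = j; revert j; decide)
  have r2 : R (R x) = R (S x) * φ (0, 0, 0, e) := by rw [r, map_mul, c.RA]; rfl
  have r3 : R (S x) = (x * S x)⁻¹ := by
    rw [N, r2, r, ← mul_assoc, ← mul_assoc, mul_assoc _ _ (R (S x)),
      f1 (c.acR (c.acS ac)) (by generalize e = j; revert j; decide), ← mul_assoc, mul_assoc, c.sq, mul_one] at n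
    exact eq_inv_of_mul_eq_one_right n
  have cm : x * S x = S x * x * φ (0, 0, 0, e) := by
    have := congrArg S n
    rw [N, map_mul, map_mul, ← c.RS hx, r3, r, map_mul, c.SS, c.SA, map_one, mul_inv_eq_one] at this
    rw [← this, mul_assoc]
    rfl
  obtain ⟨w, w1, w2⟩ := c.exsq hx ac (by decide)
  have s1 : S x * S x = φ (mS w) := by rw [← map_mul, w1, c.SA]
  have k1 : mR w = mS w := c.inj (by
    rw [← c.RA, ← w1, map_mul, r, ← mul_assoc, mul_assoc (S x), fx', ← mul_assoc, mul_assoc, c.sq, mul_one, s1])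
  have k2 : mR (mS w) = w + mS w + (0, 0, 0, e) := c.inj (by
    have cm' : S x * x = x * S x * φ (0, 0, 0, e) := by rw [cm, mul_assoc, c.sq, mul_one]
    rw [← c.RA, ← s1, map_mul, r3, ← mul_inv_rev, inv_eq_iff_eq_inv, c.inv, c.add, c.add, ← w1, ← s1,
      mul_assoc x, ← mul_assoc (S x), cm', mul_assoc _ _ (S x), fx']
    simp only [mul_assoc])
  exact ⟨w.2.1, (by decide : ∀ w (e : ZMod 2), mX w = w → mR w = mS w → mR (mS w) = w + mS w + (0, 0, 0, e) →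
    w = (0, w.2.1, 0, e)) w e w2 k1 k2 ▸ w1, cm, r, r3⟩

theorem linU (hx : x ∈ Q) (h : Ac φ x mX) (n : N R x = 1) {e : ZMod 2} (r : R x = S x * φ (0, 0, 0, e))
    (hy : y ∈ Q) (h' : Ac φ y mU) : ∃ u ∈ Q, Ac φ u mU ∧ R u = u ∧ u * x = x * u ∧ ∃ i k : ZMod 2,
      u * u = φ (0, 0, 0, i) ∧ S u = u * φ (0, 0, 0, k) := by
  obtain ⟨u, hu, ac, ru, i, k, u1, u2⟩ := c.exU hy h'
  obtain ⟨v, v1, v2⟩ := c.exK hu ac ru hx h (by decide) n
  have e1 := congrArg S v1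
  have e2 := congrArg R v1
  simp only [map_mul, u2, ru, r, c.RA, c.SA, ← mul_assoc, (c.acS h).push, ac.push, c.join] at e1 e2
  rw [← eq_mul_inv_iff_mul_eq, c.inv, c.join] at e1 e2
  rw [e1, mul_right_inj] at e2
  rcases (by decide : ∀ v (e k : ZMod 2), nn mX v = 0 → (0, 0, 0, k) + mS (mU v) +
      (mS ∘ mX ∘ mS) (0, 0, 0, k) = mU (0, 0, 0, e) + mR (mU v) + (0, 0, 0, e) → v = 0 ∨ v = (0, 1, 0, 0))
    v e k v2 (c.inj e2) with rfl | rfl
  · exact ⟨u, hu, ac, ru, by rw [v1, c.zero, mul_one], i, k, u1, u2⟩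
  · obtain ⟨t1, t2, t3⟩ := c.ut ac ru u1 u2
    refine ⟨_, mul_mem hu (c.mem vt), c.acφ ac vt, t1, ?_, _, _, t2, t3⟩
    rw [h.push, v1, ac.push, c.join, ← mul_assoc]
    exact congrArg _ (congrArg φ (by decide))

/-- the symplectic case -/
theorem sym (hy : y ∈ Q) (h : Ac φ y mD) : ∃ d ∈ Q, Ac φ d mD ∧ N R d = 1 ∧ d * d = 1 ∧
    R (R d) * d = d * R (R d) ∧ R d = R (R d) * d ∧ ∃ δ : ZMod 2,
      φ (0, 0, δ, 0) * S d * φ (0, 0, δ, 0) = R d := by
  obtain ⟨v, hv⟩ := c.exN hy h (by decide) (by decide)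
  have hy' := mul_mem hy (c.mem v)
  have h' := c.acφ h v
  generalize y * φ v = y at hv hy' h'
  obtain ⟨w, w1, w2⟩ := c.exsq hy' h' (by decide)
  have e1 : R y * y = y * R y * φ (cR mD (mD (mR (rv mD w)))) := by
    refine Eq.trans ?_ ((h'.mul (c.acR h')) _)
    rw [← c.RA, ← c.rev h' (by decide) hv w1, map_mul, map_mul, c.R3 y hy',
      ← mul_left_inj (R (R y)), mul_assoc _ (y * R y), ← N, hv, mul_one]
  have e2 : R y * φ w = R y * φ (cR mD w + (mD (cR mD (mD (mR (rv mD w)))) + cR mD (mD (mR (rv mD w))))) := by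
    rw [← w1, ← mul_assoc, e1, h'.push, mul_assoc y, e1, ← mul_assoc, ← mul_assoc, w1, c.acR h', c.join, c.join,
      add_comm (cR mD (mD _))]
  obtain ⟨β, b1, b2⟩ := (by decide : ∀ w, mD w = w → w = cR mD w + (mD (cR mD (mD (mR (rv mD w)))) +
    cR mD (mD (mR (rv mD w)))) → ∃ β, nn mD β = 0 ∧ w + (mD β + β) = 0) w w2 (c.inj (mul_left_cancel e2))
  have hx := mul_mem hy' (c.mem β)
  have ac := c.acφ h' β
  have n : N R (y * φ β) = 1 := by rw [c.N_mul h', hv, b1, c.zero, mul_one]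
  have s : y * φ β * (y * φ β) = φ 0 := by rw [c.sq_mul h', w1, ← c.add, b2]
  refine ⟨_, hx, ac, n, s.trans c.zero, ?_⟩
  generalize y * φ β = d at hx ac n s
  obtain ⟨α, a1, -, a3, a4⟩ := c.exS hx ac (by decide) (by decide) n s
  have rv0 := c.rev ac (by decide) n s
  rw [show rv mD 0 = 0 by decide, c.zero] at rv0
  rw [c.zero] at s
  have di : d⁻¹ = d := inv_eq_of_mul_eq_one_right s
  have r1 : R d = R (R d) * d := (eq_inv_of_mul_eq_one_right rv0).trans (by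
    rw [mul_inv_rev, ← map_inv, ← map_inv, di])
  refine ⟨?_, r1, ?_⟩
  · rw [← r1, ← mul_right_inj d, ← mul_assoc, s, one_mul, eq_inv_of_mul_eq_one_left n, ← map_inv, ← map_inv, di]
  · rcases (by decide : ∀ α, nn (cR mD) α = mS (rv mD 0) → mR 0 + (cR mD α + α) = mS 0 →
      α = 0 ∨ α = (1, 1, 0, 1)) α a3 a4 with rfl | rfl
    · exact ⟨0, by rw [a1, show ((0, 0, 0, 0) : V) = 0 from rfl, c.zero, one_mul, mul_one, mul_one]⟩
    · refine ⟨1, ?_⟩
      rw [a1, ← mul_assoc, c.acR ac, c.join, c.join, mul_eq_left, ← c.zero]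
      exact congrArg φ (by decide)

theorem symU (hx : x ∈ Q) (h : Ac φ x mD) (n : N R x = 1) (s : x * x = 1)
    (hy : y ∈ Q) (h' : Ac φ y mU) : ∃ u ∈ Q, Ac φ u mU ∧ R u = u ∧ u * x = x * u ∧ ∃ i k : ZMod 2,
      u * u = φ (0, 0, 0, i) ∧ S u = u * φ (0, 0, 0, k) := by
  obtain ⟨u, hu, ac, ru, i, k, u1, u2⟩ := c.exU hy h'
  obtain ⟨v, v1, v2⟩ := c.exK hu ac ru hx h (by decide) n
  have e : φ (mD v + v) = 1 := by
    rw [← one_mul (φ _), ← s, ← c.sq_mul h, ← mul_inv_eq_iff_eq_mul.2 v1, conj_mul, s, mul_one, mul_inv_cancel]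
  rcases (by decide : ∀ v, nn mD v = 0 → mD v + v = 0 → v = 0 ∨ v = (0, 1, 0, 1)) v v2 (c.eq0 e) with rfl | rfl
  · exact ⟨u, hu, ac, ru, by rw [v1, c.zero, mul_one], i, k, u1, u2⟩
  · obtain ⟨t1, t2, t3⟩ := c.ut ac ru u1 u2
    refine ⟨_, mul_mem hu (c.mem vt), c.acφ ac vt, t1, ?_, _, _, t2, t3⟩
    rw [h.push, v1, ac.push, c.join, ← mul_assoc]
    exact congrArg _ (congrArg φ (by decide))

end Cx

end Cfsg.Agent.DIH.V7.LX
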