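import Cfsg.Prelude.Def_Classical
import Cfsg.Agent.S0245
import Cfsg.Agent.S0246
import Mathlib.LinearAlgebra.Matrix.CharP
import Mathlib.LinearAlgebra.Matrix.Charpoly.Coeff
import Mathlib.FieldTheory.Finite.Basic

set_option autoImplicit false

namespace Cfsg.Agent.DIH.V7

open Subgroup

namespace PSpA

open Polynomial

/-- a polynomial of degree at most five cannot vanish at all primitive seventh roots of unity -/
theorem nil {k A : Type*} [Field k] [Ring A] [Algebra k A] {x : A} (h7 : x ^ 7 = 1) {χ : k[X]} (h0 : χ ≠ 0)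
    (hd : χ.natDegree < 6) (hr : ∀ i : Fin 6, aeval (x ^ (i.1 + 1)) χ = 0) : IsNilpotent (x - 1) := by
  let I : Ideal k[X] := RingHom.ker (aeval x : k[X] →ₐ[k] A)
  have : (X - 1 : k[X]) ∈ I.radical := by
    rw [Ideal.radical_eq_sInf, Submodule.mem_sInf]
    rintro J ⟨hJ, hp⟩
    let φ := Ideal.Quotient.mkₐ k J
    have z : ∀ P : k[X], aeval x P = 0 → φ P = 0 := fun P hP => Ideal.Quotient.eq_zero_iff_mem.2 (hJ hP)
    by_contra hne
    have : Fact (Nat.Prime 7) := ⟨by norm_num⟩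
    have ord : orderOf (φ X) = 7 := orderOf_eq_prime (by
      have := z (X ^ 7 - 1) (by simp [h7])
      rwa [map_sub, map_pow, map_one, sub_eq_zero] at this) fun e =>
        hne (Ideal.Quotient.eq_zero_iff_mem.1 (show φ (X - 1) = 0 by rw [map_sub, e, map_one, sub_self]))
    refine h0 ((Polynomial.map_eq_zero_iff (algebraMap k (k[X] ⧸ J)).injective).1
      (eq_zero_of_natDegree_lt_card_of_eval_eq_zero _ (f := fun i : Fin 6 => φ X ^ (i.1 + 1))
        (fun i j e => ?_) (fun i => ?_) ?_))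
    · have := pow_injOn_Iio_orderOf (x := φ X) (by rw [ord, Set.mem_Iio]; omega)
        (by rw [ord, Set.mem_Iio]; omega) e
      exact Fin.ext (by omega)
    · rw [eval_map_algebraMap, ← map_pow, aeval_algHom_apply]
      refine z _ ?_
      rw [← aeval_algHom_apply, map_pow, aeval_X, hr]
    · rw [natDegree_map, Fintype.card_fin]; exact hd
  obtain ⟨n, hn⟩ := this
  exact ⟨n, by simpa using RingHom.mem_ker.1 hn⟩

theorem char_seven {A : Type*} [Ring A] {p : ℕ} [hp : Fact p.Prime] [CharP A p] {x : A} (h7 : x ^ 7 = 1)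
    (h1 : x ≠ 1) (hn : IsNilpotent (x - 1)) : p = 7 := by
  obtain ⟨n, hn⟩ := hn
  have : Fact (Nat.Prime 7) := ⟨by norm_num⟩
  have h : (x - 1) ^ p ^ n = 0 := pow_eq_zero_of_le (Nat.lt_pow_self hp.out.one_lt).le hn
  rw [sub_pow_char_pow_of_commute _ _ (Commute.one_right x), one_pow, sub_eq_zero,
    ← orderOf_dvd_iff_pow_eq_one, orderOf_eq_prime h7 h1] at h
  exact ((Nat.prime_dvd_prime_iff_eq (by norm_num) hp.out).1 (Nat.Prime.dvd_of_dvd_pow (by norm_num) h)).symm

variable {k : Type*} [Field k]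

theorem ch_conj (a x : Matrix.symplecticGroup (Fin 2) k) : (a * x * a⁻¹).1.charpoly = x.1.charpoly := by
  rw [Submonoid.coe_mul, Matrix.charpoly_mul_comm, ← Submonoid.coe_mul, inv_mul_cancel_left]

theorem ch_inv (x : Matrix.symplecticGroup (Fin 2) k) : (x⁻¹).1.charpoly = x.1.charpoly := by
  rw [SymplecticGroup.coe_inv, Matrix.charpoly_mul_comm, ← mul_assoc, mul_neg, Matrix.J_squared, neg_neg, one_mul,
    Matrix.charpoly_transpose]

theorem seven {p : ℕ} [Fact p.Prime] [CharP k p] {x a : Matrix.symplecticGroup (Fin 2) k} (h7 : x ^ 7 = 1)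
    (h1 : x ≠ 1) (c : a * x * a⁻¹ = x ^ 2) : p = 7 := by
  have c2 : (x ^ 2).1.charpoly = x.1.charpoly := by rw [← c, ch_conj]
  have c4 : (x ^ 4).1.charpoly = x.1.charpoly := by
    rw [show x ^ 4 = a * x ^ 2 * a⁻¹ by rw [← conj_pow, c, ← pow_mul], ch_conj, c2]
  have iv : ∀ i j, i + j = 7 → (x ^ i).1.charpoly = (x ^ j).1.charpoly := fun i j e => by
    rw [← ch_inv (x ^ j), inv_eq_of_mul_eq_one_left (by rw [← pow_add, e, h7])]
  have h7' : x.1 ^ 7 = 1 := by rw [← SubmonoidClass.coe_pow, h7]; rfl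
  refine char_seven h7' (fun e => h1 (Subtype.ext e)) (nil h7' x.1.charpoly_monic.ne_zero (by simp) fun i => ?_)
  have : (x ^ (i.1 + 1)).1.charpoly = x.1.charpoly := by
    fin_cases i
    · simp
    · exact c2
    · exact (iv 3 4 rfl).trans c4
    · exact c4
    · exact (iv 5 2 rfl).trans c2
    · exact (iv 6 1 rfl).trans (by rw [pow_one])
  rw [← this, ← SubmonoidClass.coe_pow]
  exact Matrix.aeval_self_charpoly _

theorem lift {A : Type*} [Group A] {Z : Subgroup A} [Z.Normal] (hZ : ∀ z ∈ Z, z ^ 2 = 1)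
    (hc : ∀ z ∈ Z, ∀ a, a * z = z * a) {g u : A ⧸ Z} (o : orderOf g = 7) (c : u * g * u⁻¹ = g ^ 2) :
    ∃ x a : A, x ^ 7 = 1 ∧ x ≠ 1 ∧ a * x * a⁻¹ = x ^ 2 := by
  obtain ⟨y, rfl⟩ := QuotientGroup.mk_surjective g
  obtain ⟨a, rfl⟩ := QuotientGroup.mk_surjective u
  have g7 : (y : A ⧸ Z) ^ 7 = 1 := o ▸ pow_orderOf_eq_one _
  have y14 : (y ^ 7) ^ 2 = 1 := hZ _ ((QuotientGroup.eq_one_iff _).1 g7)
  have x7 : (y ^ 8) ^ 7 = 1 := by
    rw [← pow_mul, show 8 * 7 = 7 * 2 * 4 from rfl, pow_mul, pow_mul, y14, one_pow]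
  have e : ((y ^ 8 : A) : A ⧸ Z) = y := by rw [QuotientGroup.mk_pow, pow_succ, g7, one_mul]
  rw [← e] at o c
  generalize y ^ 8 = x at x7 o c
  refine ⟨x, a, x7, fun h => by simp [h] at o, ?_⟩
  have hz : (x ^ 2)⁻¹ * (a * x * a⁻¹) ∈ Z := QuotientGroup.eq.1 c.symm
  generalize hw : (x ^ 2)⁻¹ * (a * x * a⁻¹) = w at hz
  rw [inv_mul_eq_iff_eq_mul] at hw
  have h7 : w ^ 7 = 1 := by
    have := congrArg (· ^ 7) hw
    simp only [conj_pow, x7, mul_one, mul_inv_cancel] at this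
    rw [Commute.mul_pow (hc w hz _), ← pow_mul, mul_comm, pow_mul, x7, one_pow, one_mul] at this
    exact this.symm
  rw [show 7 = 2 * 3 + 1 from rfl, pow_succ, pow_mul, hZ w hz, one_pow, one_mul] at h7
  rw [hw, h7, mul_one]

end PSpA

variable {G : Type*} [Group G] [Finite G] {F O K T C0 P P1 P2 S : Subgroup G}
  {t z a a' a1 a2 f : G}

/-- a Frobenius group of order 21 in `PSp₄(q)`, `q` odd, forces characteristic seven -/
theorem psp_dvd {H : Type*} [Group H] {k : Type} [Field k] [Fintype k] (hk : Odd (Fintype.card k))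
    (e : H ≃* PSp 2 k) {g u : H} (o : orderOf g = 7) (c : u * g * u⁻¹ = g ^ 2) : 256 ∣ Nat.card H := by
  have hZ : Nat.card (center (Matrix.symplecticGroup (Fin 2) k)) = 2 := by
    obtain ⟨m, hm⟩ := hk
    rw [S0246.result rfl 2 (by norm_num), hm, Nat.add_sub_cancel, Nat.gcd_mul_right_right]
  obtain ⟨x, a, h7, h1, hc⟩ := PSpA.lift (Z := center (Matrix.symplecticGroup (Fin 2) k))
    (fun z hz => by
      have := pow_card_eq_one' (x := (⟨z, hz⟩ : center (Matrix.symplecticGroup (Fin 2) k)))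
      rw [hZ] at this
      exact congrArg Subtype.val this)
    (fun z hz a => mem_center_iff.1 hz a) (g := e g) (u := e u) ((e.orderOf_eq g).trans o)
    (by rw [← map_inv, ← map_mul, ← map_mul, c, map_pow])
  obtain ⟨p, hp⟩ := CharP.exists k
  obtain ⟨n, hp', hq⟩ := FiniteField.card k p
  have : Fact p.Prime := ⟨hp'⟩
  obtain rfl : p = 7 := PSpA.seven h7 h1 hc
  have h2 := card_eq_card_quotient_mul_card_subgroup (center (Matrix.symplecticGroup (Fin 2) k))
  rw [S0245.result rfl 2, hZ, ← Nat.card_congr e.toEquiv] at h2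
  obtain ⟨m, hm⟩ : ∃ m, Fintype.card k ^ 2 = 16 * m + 1 := by
    refine ⟨Fintype.card k ^ 2 / 16, ?_⟩
    have : Fintype.card k ^ 2 % 16 = 1 := by
      rw [hq, ← pow_mul, mul_comm, pow_mul, Nat.pow_mod]; simp
    omega
  have h4 : Fintype.card k ^ 4 = 32 * (m * (8 * m + 1)) + 1 := by
    rw [show 4 = 2 * 2 from rfl, pow_mul, hm]; ring
  simp only [Finset.prod_range_succ, Finset.prod_range_zero, one_mul, zero_add, mul_one] at h2
  rw [show 2 * (1 + 1) = 4 from rfl, hm, h4, Nat.add_sub_cancel, Nat.add_sub_cancel] at h2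
  exact ⟨Fintype.card k ^ 2 ^ 2 * (m * (m * (8 * m + 1))), by
    apply Nat.eq_of_mul_eq_mul_right two_pos
    rw [← h2]; ring⟩

end Cfsg.Agent.DIH.V7
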