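import Cfsg.Agent.DA7.Defs
import Cfsg.Agent.DA7.DA

set_option autoImplicit false

namespace Cfsg.Agent.DIH.V7

open Subgroup H49
open H42 (SylIn)

variable {G : Type*} [Group G] [Finite G] {F O K T C0 P P1 P2 S : Subgroup G}
  {t z a a' a1 a2 f : G}

namespace S7

open Equiv Equiv.Perm

abbrev P7 := Equiv.Perm (Fin 7)

def z0 : P7 := swap 0 1 * swap 2 3
def a0 : P7 := swap 0 2 * swap 1 3
def b0 : P7 := swap 0 1 * swap 4 5
def t0 : P7 := swap 4 5 * swap 5 6
def u0 : P7 := swap 0 1 * swap 1 2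

def LD : List P7 := [1, swap 0 1, swap 2 3, z0, a0, a0 * z0, a0 * swap 0 1, a0 * swap 2 3]
def LS : List P7 := [1, swap 4 5, swap 4 6, swap 5 6, t0, swap 5 6 * swap 4 5]
def L : List P7 := LD.flatMap fun d => LS.map fun s => d * s

def M : List P7 := [a0, a0 * z0, b0, swap 0 1 * swap 4 6, swap 0 1 * swap 5 6, swap 2 3 * swap 4 5,
  swap 2 3 * swap 4 6, swap 2 3 * swap 5 6]

def eb (f g : P7) : Bool := (f 0).1 == (g 0).1 && (f 1).1 == (g 1).1 && (f 2).1 == (g 2).1 &&
  (f 3).1 == (g 3).1 && (f 4).1 == (g 4).1 && (f 5).1 == (g 5).1 && (f 6).1 == (g 6).1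

theorem eb_iff {f g : P7} : eb f g = true ↔ f = g := by
  refine ⟨fun h => ?_, fun h => by simp [eb, h]⟩
  simp only [eb, Bool.and_eq_true, beq_iff_eq, Fin.val_inj] at h
  obtain ⟨⟨⟨⟨⟨⟨e0, e1⟩, e2⟩, e3⟩, e4⟩, e5⟩, e6⟩ := h
  ext1 i
  fin_cases i
  exacts [e0, e1, e2, e3, e4, e5, e6]

theorem eb_not {f g : P7} : (!eb f g) = true ↔ f ≠ g := by
  rw [Bool.not_eq_true', ← Bool.not_eq_true, eb_iff]

theorem B_comm : (L.all fun l => eb (l * z0) (z0 * l)) = true := by decide +kernel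

theorem B_tri : (L.all fun l => eb (l * l * l * l * (l * l * l * l) * (l * l * l * l)) 1 &&
    (!eb (l * l * l) 1 || eb l 1 || eb l t0 || eb l t0⁻¹)) = true := by decide +kernel

theorem B_cen : (L.all fun l => !eb (l * a0) (a0 * l) || !eb (l * b0) (b0 * l) || eb l 1 || eb l z0 ||
    (eb (l * t0 * l⁻¹) t0⁻¹ && (eb (l * u0) (u0 * l) || eb (l * z0 * u0) (u0 * (l * z0))))) = true := by
  decide +kernel

theorem B_ex : ([0, 1, 2, 3].all fun x0 : Fin 7 => [0, 1, 2, 3].all fun x2 : Fin 7 =>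
    x0 == x2 || z0 x0 == x2 || [4, 5, 6].all fun x4 : Fin 7 => [4, 5, 6].all fun x5 : Fin 7 =>
      [4, 5, 6].all fun x6 : Fin 7 => x4 == x5 || x4 == x6 || x5 == x6 ||
        L.any fun l => l 0 == x0 && l 2 == x2 && l 4 == x4 && l 5 == x5 && l 6 == x6) = true := by
  decide +kernel

theorem B_M : (L.all fun l => !eb (l * l) 1 || decide (sign l = -1) || eb l 1 || eb l z0 ||
    M.any fun m => eb l m) = true := by decide +kernel

theorem B_pair : (M.all fun a => M.all fun b => !eb (b * a) (a * b * z0) || L.any fun g =>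
    (eb (g * a0) (a * g) && eb (g * b0) (b * g)) || (eb (g * a0) (b * g) && eb (g * b0) (a * g))) = true := by
  decide +kernel

theorem L_comm {l : P7} (hl : l ∈ L) : l * z0 = z0 * l := eb_iff.1 (List.all_eq_true.1 B_comm l hl)

theorem mv : ∀ x : Fin 7, z0 x ≠ x → x ∈ ([0, 1, 2, 3] : List (Fin 7)) := by decide +kernel

theorem fx : ∀ x : Fin 7, z0 x = x → x ∈ ([4, 5, 6] : List (Fin 7)) := by decide +kernel

theorem mem_L {σ : P7} (h : σ * z0 = z0 * σ) : σ ∈ L := by
  have k : ∀ i, z0 (σ i) = σ (z0 i) := fun i => by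
    rw [← Perm.mul_apply, ← h, Perm.mul_apply]
  have n : ∀ i j, i ≠ j → σ i ≠ σ j := fun i j e e' => e (σ.injective e')
  have z01 : z0 0 = 1 := by decide +kernel
  have z23 : z0 2 = 3 := by decide +kernel
  have z4 : z0 4 = 4 := by decide +kernel
  have z5 : z0 5 = 5 := by decide +kernel
  have z6 : z0 6 = 6 := by decide +kernel
  have h0 := B_ex
  simp only [List.all_eq_true, List.any_eq_true, Bool.or_eq_true, Bool.and_eq_true, beq_iff_eq] at h0
  have h1 := h0 (σ 0) (mv _ (by rw [k, z01]; exact n _ _ (by decide))) (σ 2)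
    (mv _ (by rw [k, z23]; exact n _ _ (by decide)))
  have h2 := h1.resolve_left (by
    rw [k, z01]; exact not_or.2 ⟨n _ _ (by decide), n _ _ (by decide)⟩)
  obtain ⟨l, hl, ⟨⟨⟨e0, e2⟩, e4⟩, e5⟩, e6⟩ := (h2 (σ 4) (fx _ (by rw [k, z4])) (σ 5)
    (fx _ (by rw [k, z5])) (σ 6) (fx _ (by rw [k, z6]))).resolve_left
    (not_or.2 ⟨not_or.2 ⟨n _ _ (by decide), n _ _ (by decide)⟩, n _ _ (by decide)⟩)
  have k' : ∀ i, z0 (l i) = l (z0 i) := fun i => by
    rw [← Perm.mul_apply, ← L_comm hl, Perm.mul_apply]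
  have e1 : l 1 = σ 1 := by
    have := k' 0
    rw [e0, k, z01] at this; exact this.symm
  have e3 : l 3 = σ 3 := by
    have := k' 2
    rw [e2, k, z23] at this; exact this.symm
  have : σ = l := by
    ext1 i
    fin_cases i
    exacts [e0.symm, e1.symm, e2.symm, e3.symm, e4.symm, e5.symm, e6.symm]
  rw [this]; exact hl

theorem L_tri {l : P7} (hl : l ∈ L) : l ^ 12 = 1 ∧ (l ^ 3 = 1 → l = 1 ∨ l = t0 ∨ l = t0⁻¹) := by
  have h := List.all_eq_true.1 B_tri l hl
  simp only [Bool.or_eq_true, Bool.and_eq_true, eb_not, eb_iff] at h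
  refine ⟨by rw [← h.1]; simp only [pow_succ, pow_zero, one_mul, mul_assoc], fun e => ?_⟩
  have : l * l * l = 1 := by rw [← e, pow_three']
  tauto

theorem L_cen {l : P7} (hl : l ∈ L) (h1 : l * a0 = a0 * l) (h2 : l * b0 = b0 * l) : l = 1 ∨ l = z0 ∨
    (l * t0 * l⁻¹ = t0⁻¹ ∧ (l * u0 = u0 * l ∨ l * z0 * u0 = u0 * (l * z0))) := by
  have h := List.all_eq_true.1 B_cen l hl
  simp only [Bool.or_eq_true, Bool.and_eq_true, eb_not, eb_iff] at h
  tauto

theorem mem_M {l : P7} (h : l * z0 = z0 * l) (h2 : l * l = 1) (h3 : sign l = 1) (h4 : l ≠ 1)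
    (h5 : l ≠ z0) : l ∈ M := by
  have h := List.all_eq_true.1 B_M l (mem_L h)
  simp only [Bool.or_eq_true, eb_not, eb_iff, List.any_eq_true, decide_eq_true_eq, h3] at h
  rcases h with (((h | h) | h) | h) | ⟨m, hm, h⟩
  · exact absurd h2 h
  · exact absurd h (by decide)
  · exact absurd h h4
  · exact absurd h h5
  · rw [h]; exact hm

theorem L_pair {a b : P7} (d : D8 z0 a b) (e1 : sign a = 1) (e2 : sign b = 1) :
    ∃ g ∈ L, (g * a0 * g⁻¹ = a ∧ g * b0 * g⁻¹ = b) ∨ (g * a0 * g⁻¹ = b ∧ g * b0 * g⁻¹ = a) := by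
  have nc : b * a ≠ a * b := fun e => d.z1 (by
    have := d.r
    rw [e] at this; exact mul_eq_left.1 this.symm)
  have h := List.all_eq_true.1 (List.all_eq_true.1 B_pair a
    (mem_M d.c1.symm d.s1 e1 (fun e => nc (by rw [e, mul_one, one_mul]))
      fun e => nc (by rw [e, d.c2]))) b
    (mem_M d.c2.symm d.s2 e2 (fun e => nc (by rw [e, mul_one, one_mul])) fun e => nc (by rw [e, d.c1]))
  simp only [Bool.or_eq_true, Bool.and_eq_true, eb_not, eb_iff, List.any_eq_true] at h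
  obtain ⟨g, hg, h⟩ := h.resolve_left (not_not.2 d.r)
  exact ⟨g, hg, by simpa only [mul_inv_eq_iff_eq_mul] using h⟩

theorem y0 : S7Y z0 a0 b0 t0 where
  ev := by rw [mem_alternatingGroup]; decide +kernel
  t3 := by rw [pow_three']; exact eb_iff.1 (by decide +kernel)
  t1 := eb_not.1 (by decide +kernel)
  tz := eb_iff.1 (by decide +kernel)
  ta := eb_iff.1 (by decide +kernel)
  inv := eb_iff.1 (by decide +kernel)
  tri σ ho h := by
    obtain ⟨h1, h2⟩ := L_tri (mem_L h)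
    refine h2 (orderOf_dvd_iff_pow_eq_one.1 ?_)
    have h3 : orderOf σ ∣ 4 * 3 := orderOf_dvd_of_pow_eq_one h1
    exact Nat.Coprime.dvd_of_dvd_mul_left
      ((Nat.coprime_two_right.2 ho).pow_right 2) h3
  cen σ h1 h2 := by
    have e : z0 = a0 * b0 * a0 * b0 := eb_iff.1 (by decide +kernel)
    have h3 : σ * z0 = z0 * σ := by
      have c1 : Commute σ a0 := h1
      have c2 : Commute σ b0 := h2
      rw [e]; exact ((c1.mul_right c2).mul_right c1).mul_right c2
    rcases L_cen (mem_L h3) h1 h2 with h | h | ⟨h, h'⟩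
    · exact Or.inl h
    · exact Or.inr (Or.inl h)
    · exact Or.inr (Or.inr ⟨h, u0, by rw [mem_alternatingGroup]; decide +kernel,
        by rw [pow_three']; exact eb_iff.1 (by decide +kernel), eb_iff.1 (by decide +kernel),
        eb_not.1 (by decide +kernel), eb_not.1 (by decide +kernel), eb_not.1 (by decide +kernel), h'⟩)

theorem cj {z a b τ : P7} (h : S7Y z a b τ) (g : P7) :
    S7Y (g * z * g⁻¹) (g * a * g⁻¹) (g * b * g⁻¹) (g * τ * g⁻¹) := by
  let c := MulAut.conj g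
  have hc : ∀ x, g * x * g⁻¹ = c x := fun _ => rfl
  have ev : ∀ x ∈ alternatingGroup (Fin 7), c x ∈ alternatingGroup (Fin 7) := fun x hx =>
    Subgroup.Normal.conj_mem inferInstance x hx g
  simp only [hc]
  refine ⟨ev _ h.ev, by rw [← map_pow, h.t3, map_one], fun e => h.t1 (c.injective (by rw [e, map_one])),
    by rw [← map_mul, ← map_mul, h.tz], by rw [← map_mul, ← map_mul, h.ta],
    by rw [← map_mul, ← map_mul, h.inv, map_inv], fun σ ho e => ?_, fun σ e1 e2 => ?_⟩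
  · obtain ⟨σ, rfl⟩ := c.surjective σ
    rw [← map_mul, ← map_mul] at e
    rw [MulEquiv.orderOf_eq] at ho
    rcases h.tri σ ho (c.injective e) with r | r | r
    · exact Or.inl (by rw [r, map_one])
    · exact Or.inr (Or.inl (by rw [r]))
    · exact Or.inr (Or.inr (by rw [r, map_inv]))
  · obtain ⟨σ, rfl⟩ := c.surjective σ
    rw [← map_mul, ← map_mul] at e1 e2
    rcases h.cen σ (c.injective e1) (c.injective e2) with r | r | ⟨r, τ', k1, k2, k3, k4, k5, k6, k7⟩
    · exact Or.inl (by rw [r, map_one])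
    · exact Or.inr (Or.inl (by rw [r]))
    · refine Or.inr (Or.inr ⟨by rw [← map_inv, ← map_mul, ← map_mul, r, map_inv], c τ', ev _ k1,
        by rw [← map_pow, k2, map_one], by rw [← map_mul, ← map_mul, k3],
        fun e => k4 (c.injective (by rw [e, map_one])), fun e => k5 (c.injective e),
        fun e => k6 (c.injective (by rw [e, map_inv])), ?_⟩)
      simp only [← map_mul]
      exact k7.imp (congrArg c) (congrArg c)

theorem ct {z : P7} (h2 : z * z = 1) (h1 : z ≠ 1) (e : sign z = 1) :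
    z.cycleType = Multiset.replicate 2 2 := by
  have ho : orderOf z = 2 := orderOf_eq_prime (by rw [sq]; exact h2) h1
  obtain ⟨n, hn⟩ := cycleType_prime_order (σ := z) (by rw [ho]; exact Nat.prime_two)
  rw [ho] at hn
  have h3 := sum_cycleType z
  have h4 : z.support.card ≤ 7 := by simpa using Finset.card_le_univ z.support
  have h5 := sign_of_cycleType z
  rw [hn, Multiset.sum_replicate, smul_eq_mul] at h3
  rw [hn, Multiset.sum_replicate, smul_eq_mul, Multiset.card_replicate, e] at h5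
  have : n = 0 ∨ n = 1 ∨ n = 2 := by omega
  rcases this with rfl | rfl | rfl
  · exact absurd h5 (by decide)
  · exact hn
  · exact absurd h5 (by decide)

end S7

/-- a dihedral subgroup of order eight of `A₇` -/
theorem s7 {z a1 a2 : Equiv.Perm (Fin 7)} (d : D8 z a1 a2) (e1 : a1 ∈ alternatingGroup (Fin 7))
    (e2 : a2 ∈ alternatingGroup (Fin 7)) : ∃ τ, S7Y z a1 a2 τ ∨ S7Y z a2 a1 τ := by
  rw [Equiv.Perm.mem_alternatingGroup] at e1 e2
  have ez : Equiv.Perm.sign z = 1 := by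
    have := congrArg Equiv.Perm.sign d.r
    simp only [map_mul, e1, e2, one_mul] at this
    exact this.symm
  obtain ⟨c, hc⟩ := isConj_iff.1 (Equiv.Perm.isConj_of_cycleType_eq
    ((S7.ct d.z2 d.z1 ez).trans (S7.ct (z := S7.z0) (S7.eb_iff.1 (by decide +kernel))
      (S7.eb_not.1 (by decide +kernel)) (by decide +kernel)).symm))
  have sg : ∀ x, Equiv.Perm.sign x = 1 → Equiv.Perm.sign (c * x * c⁻¹) = 1 := fun x hx => by
    simp [hx]
  obtain ⟨g, hg, h⟩ := S7.L_pair (a := c * a1 * c⁻¹) (b := c * a2 * c⁻¹)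
    ⟨S7.eb_iff.1 (by decide +kernel), S7.eb_not.1 (by decide +kernel), by rw [conj_mul, d.s1]; simp,
      by rw [conj_mul, d.s2]; simp, by rw [← hc, conj_mul, conj_mul, d.c1],
      by rw [← hc, conj_mul, conj_mul, d.c2], by rw [← hc, conj_mul, conj_mul, conj_mul, d.r]⟩
    (sg _ e1) (sg _ e2)
  have y := S7.cj (S7.cj S7.y0 g) c⁻¹
  have gz : g * S7.z0 * g⁻¹ = S7.z0 := by rw [S7.L_comm hg]; group
  have cc : ∀ x, c⁻¹ * (c * x * c⁻¹) * c⁻¹⁻¹ = x := fun x => by group
  rw [gz, ← hc, cc] at y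
  rcases h with ⟨h1, h2⟩ | ⟨h1, h2⟩
  · rw [h1, h2, cc, cc] at y; exact ⟨_, Or.inl y⟩
  · rw [h1, h2, cc, cc] at y; exact ⟨_, Or.inr y⟩

end Cfsg.Agent.DIH.V7
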