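import Cfsg.Agent.DA7.Defs
import Cfsg.Agent.H49.Prod

set_option autoImplicit false
set_option linter.unusedSectionVars false
set_option linter.unusedVariables false

namespace Cfsg.Agent.DIH.V7

open Subgroup H49
open H42 (SylIn)

variable {G : Type*} [Group G] [Finite G] {F O K T C0 P P1 P2 S : Subgroup G}
  {t z a a' a1 a2 f : G}

namespace Sr

theorem sec_pg {K N : Subgroup G} (h : H85.ElemSec 2 K N) [(N.subgroupOf K).Normal] :
    IsPGroup 2 (K ⧸ N.subgroupOf K) := fun q => by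
  obtain ⟨q, rfl⟩ := QuotientGroup.mk_surjective q
  exact ⟨1, (QuotientGroup.eq_one_iff (q ^ 2 ^ 1)).2 (h.pow _ q.2)⟩

theorem sec_pow {K N : Subgroup G} (h : H85.ElemSec 2 K N) : ∃ n, N.relIndex K = 2 ^ n := by
  have := h.normal
  have := Fact.mk Nat.prime_two
  exact IsPGroup.iff_card.1 (sec_pg h)

theorem sec_inf {K N L : Subgroup G} (h : H85.ElemSec 2 K N) (hL : L ≤ K) : H85.ElemSec 2 L (N ⊓ L) :=
  ⟨inf_le_right, fun x hx y hy => mem_inf.2 ⟨h.comm x (hL hx) y (hL hy),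
    mul_mem (mul_mem (mul_mem hx hy) (inv_mem hx)) (inv_mem hy)⟩,
    fun x hx => mem_inf.2 ⟨h.pow x (hL hx), pow_mem hx 2⟩⟩

theorem sec_sup {K N M : Subgroup G} (h : H85.ElemSec 2 K N) (h1 : N ≤ M) (h2 : M ≤ K) :
    H85.ElemSec 2 K M := ⟨h2, fun x hx y hy => h1 (h.comm x hx y hy), fun x hx => h1 (h.pow x hx)⟩

theorem sec_split {K N L : Subgroup G} (h : H85.ElemSec 2 K N) (hL : L ≤ K) :
    N.relIndex K = N.relIndex L * (L ⊔ N).relIndex K := by
  rw [← relIndex_sup_of_norm (Or.inl (hL.trans h.le_normalizer)),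
    relIndex_mul_relIndex _ _ _ le_sup_right (sup_le hL h.le)]

theorem idx_cent {K W : Subgroup G} {u : G} (h : ∀ k ∈ K, k * u * k⁻¹ * u⁻¹ ∈ W) :
    (𝒞[u] : Subgroup G).relIndex K ≤ Nat.card W := by
  refine Nat.card_le_card_of_injective
    (fun q : K ⧸ (𝒞[u] : Subgroup G).subgroupOf K => (⟨_, h _ q.out.2⟩ : W)) fun x y e => ?_
  have e := mul_right_cancel (congrArg Subtype.val e)
  rw [← x.out_eq, ← y.out_eq]
  refine QuotientGroup.eq.2 (mem_subgroupOf.2 (mem_cent1.2 ?_))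
  simp only [coe_mul, coe_inv]
  calc _ = (x.out : G)⁻¹ * (y.out * u * (y.out : G)⁻¹) * y.out := by group
    _ = _ := by rw [← e]; group

theorem idx_two {K M : Subgroup G} (h : ∀ x ∈ K, ∀ y ∈ K, x ∉ M → y ∉ M → x * y ∈ M) :
    M.relIndex K ≤ 2 := by
  have : Nat.card (K ⧸ M.subgroupOf K) ≤ Nat.card Prop :=
    Nat.card_le_card_of_injective (fun q => (q.out : G) ∈ M) fun x y e => by
      rw [← x.out_eq, ← y.out_eq]
      refine QuotientGroup.eq.2 (mem_subgroupOf.2 ?_)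
      by_cases hx : (x.out : G) ∈ M
      · exact mul_mem (inv_mem hx) (e.to_iff.1 hx)
      · exact h _ (inv_mem x.out.2) _ y.out.2 (by rwa [inv_mem_iff]) fun hy => hx (e.to_iff.2 hy)
  exact this.trans (by simp)

theorem two_mul {W U : Subgroup G} (h : W ≤ U) (c : Nat.card U = 2 * Nat.card W) {x y : G} (hx : x ∈ U)
    (hy : y ∈ U) (x1 : x ∉ W) (y1 : y ∉ W) : x * y ∈ W := by
  have e : (W.subgroupOf U).index = 2 := by
    have := card_mul_relIndex h
    rw [c, mul_comm 2] at this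
    exact Nat.eq_of_mul_eq_mul_left Nat.card_pos this
  exact (mul_mem_iff_of_index_two e (a := ⟨x, hx⟩) (b := ⟨y, hy⟩)).2 (iff_of_false x1 y1)

theorem comm_two {W U : Subgroup G} (h : W ≤ U) (c : Nat.card U = 2 * Nat.card W) (h1 : K ≤ 𝒩(W))
    (h2 : K ≤ 𝒩(U)) {k u : G} (hk : k ∈ K) (hu : u ∈ U) : k * u * k⁻¹ * u⁻¹ ∈ W := by
  by_cases e : u ∈ W
  · exact mul_mem (conj_mem_of_norm h1 hk e) (inv_mem e)
  · refine two_mul h c (conj_mem_of_norm h2 hk hu) (inv_mem hu) (fun e' => e ?_) (by rwa [inv_mem_iff])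
    simpa [mul_assoc] using conj_mem_of_norm' h1 hk e'

theorem exists_not_mem {W U : Subgroup G} (c : Nat.card W < Nat.card U) : ∃ u ∈ U, u ∉ W := by
  by_contra e
  push Not at e
  exact absurd (card_le_of_le e) (not_le.2 c)

theorem idx_step {K W U V : Subgroup G} (h : W ≤ U) (c : Nat.card U = 2 * Nat.card W)
    (hc : ∀ k ∈ K, ∀ u ∈ U, k * u * k⁻¹ * u⁻¹ ∈ V) :
    𝒞(U).relIndex K ≤ 𝒞(W).relIndex K * Nat.card V := by
  obtain ⟨u, hu, u1⟩ := exists_not_mem (W := W) (U := U) (by have := card_pos' W; omega)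
  have le : 𝒞(W) ⊓ 𝒞[u] ≤ 𝒞(U) := fun x hx => mem_centralizer_iff.2 fun y hy => by
    by_cases e : y ∈ W
    · exact mem_centralizer_iff.1 hx.1 y e
    · have e1 := mem_centralizer_iff.1 hx.1 _ (two_mul h c hy (inv_mem hu) e (by rwa [inv_mem_iff]))
      have e2 := mem_cent1.1 hx.2
      calc y * x = y * u⁻¹ * (u * x) := by group
        _ = y * u⁻¹ * x * u := by rw [← e2]; group
        _ = x * y := by rw [e1]; group
  exact (relIndex_le_of_le_left le (relIndex_pos _ _).ne').trans (relIndex_inf_le.trans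
    (Nat.mul_le_mul_left _ (idx_cent fun k hk => hc k hk u hu)))

theorem exists_sub {U : Subgroup G} (hS : IsPGroup 2 S) (hU : IsPGroup 2 U) (hn : S ≤ 𝒩(U)) (k : ℕ)
    (hk : 2 ^ k ≤ Nat.card U) : ∃ W ≤ U, S ≤ 𝒩(W) ∧ Nat.card W = 2 ^ k := by
  have := Fact.mk Nat.prime_two
  have := normal_subgroupOf (sup_le hn (norm_of_le le_rfl) : S ⊔ U ≤ 𝒩(U))
  obtain ⟨W, h1, h2, h3⟩ := H3.exists_normal_le_card_eq (hS.to_sup_of_normal_right' hU hn)
    (U.subgroupOf (S ⊔ U)) k (by rwa [card_subgroupOf_of_le le_sup_right])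
  refine ⟨W.map (S ⊔ U).subtype, ?_, le_sup_left.trans (norm_map_subtype W), ?_⟩
  · rintro _ ⟨x, hx, rfl⟩
    exact h2 hx
  · rw [card_map_of_injective (S ⊔ U).subtype_injective, h3]

theorem pg_of_sq {U : Subgroup G} (hU : ∀ u ∈ U, u * u = 1) : IsPGroup 2 U := fun u =>
  ⟨1, Subtype.ext (by simpa [sq] using hU u u.2)⟩

theorem ab_of_sq {U : Subgroup G} (hU : ∀ u ∈ U, u * u = 1) : U ≤ 𝒞(U) := fun x hx =>
  mem_centralizer_iff.2 fun y hy => by
    have e := hU _ (mul_mem hx hy)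
    calc y * x = (x * x) * y * x * (y * y) := by rw [hU x hx, hU y hy]; group
      _ = x * (x * y * (x * y)) * y := by group
      _ = x * y := by rw [e]; group

end Sr

open Sr

theorem SR.mono {Q : Subgroup G} (h : SR P) (hQ : Q ≤ P) : SR Q := fun K N hK => h K N (hK.trans hQ)

end Cfsg.Agent.DIH.V7
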